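import Mathlib
import Cfsg.Agent.Walter.MetaPSL
import Cfsg.Agent.OddTab.LTwo
import Cfsg.Agent.Lib.PSL2Torus
import Cfsg.Agent.ClassicalGeometry.PSL2Basic
import Cfsg.Agent.S0016

/-!
# Self-centralizing noncyclic subgroups of `PSL₂(q)` (helper479)

`SCN G` : every noncyclic subgroup contains its centralizer.
`scn_psl` : `SCN G` for `G ≃* PSL₂(F)`, `|F|` odd, a prime of the form `2^k ± 1` or `9`.
-/

set_option autoImplicit false

namespace Cfsg.Agent.H479.SelfCent

open Subgroup Matrix Cfsg.Agent.Lib.PSL2Torus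

/-- Every noncyclic subgroup contains its centralizer. -/
def SCN (G : Type*) [Group G] : Prop :=
  ∀ H : Subgroup G, ¬ IsCyclic ↥H → Subgroup.centralizer (H : Set G) ≤ H

variable {F : Type*} [Field F]

/-- If `x`, `w` are `2 × 2` matrices, `char F = p` odd, `det x = 1`, which commute, `w ^ p = 1`, `w ≠ 1`, then
`x ^ p = ± 1`. -/
theorem pow_of_comm_unipotent_mat (p : ℕ) [Fact p.Prime] [CharP F p] (hp2 : p ≠ 2)
    {w x : Matrix (Fin 2) (Fin 2) F} (hw : w ^ p = 1) (hw1 : w ≠ 1) (hx : x.det = 1)
    (hc : x * w = w * x) : x ^ p = 1 ∨ x ^ p = -1 := by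
  classical
  have hodd : Odd p := (Fact.out : p.Prime).odd_of_ne_two hp2
  have hp0 : p ≠ 0 := (Fact.out : p.Prime).ne_zero
  -- the nilpotent matrix `N = w - 1`
  obtain ⟨N, hN⟩ : ∃ N : Matrix (Fin 2) (Fin 2) F, N = w - 1 := ⟨_, rfl⟩
  have hNp : N ^ p = 0 := by
    rw [hN, sub_pow_char_of_commute (p := p) (Commute.one_right w), one_pow, hw, sub_self]
  have hN0 : N ≠ 0 := by
    intro h0
    apply hw1
    rw [h0] at hN
    exact (sub_eq_zero.1 hN.symm)
  have hNil : IsNilpotent N := ⟨p, hNp⟩
  have htr : N.trace = 0 := (Matrix.isNilpotent_trace_of_isNilpotent hNil).eq_zero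
  have hdet : N.det = 0 := by
    have : N.det ^ p = 0 := by
      rw [← Matrix.det_pow, hNp, Matrix.det_zero]
    exact (pow_eq_zero_iff hp0).1 this
  have hxN : x * N = N * x := by
    rw [hN, mul_sub, sub_mul, hc, mul_one, one_mul]
  rw [Matrix.trace_fin_two] at htr
  rw [Matrix.det_fin_two] at hdet hx
  have e1 := congrFun (congrFun hxN 0) 0
  have e2 := congrFun (congrFun hxN 0) 1
  have e3 := congrFun (congrFun hxN 1) 0
  simp only [Matrix.mul_apply, Fin.sum_univ_two] at e1 e2 e3
  obtain ⟨a, ha⟩ : ∃ a, a = x 0 0 := ⟨_, rfl⟩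
  obtain ⟨b, hb⟩ : ∃ b, b = x 0 1 := ⟨_, rfl⟩
  obtain ⟨c, hcc⟩ : ∃ c, c = x 1 0 := ⟨_, rfl⟩
  obtain ⟨d, hd⟩ : ∃ d, d = x 1 1 := ⟨_, rfl⟩
  rw [← ha, ← hb, ← hcc] at e1
  rw [← ha, ← hb, ← hd] at e2
  rw [← ha, ← hcc, ← hd] at e3
  rw [← ha, ← hb, ← hcc, ← hd] at hx
  have hn11 : N 1 1 = - N 0 0 := by linear_combination htr
  rw [hn11] at e2 e3 hdet
  have hD : (a + d) ^ 2 = 4 := by
    by_cases h01 : N 0 1 = 0
    · by_cases h10 : N 1 0 = 0
      · exfalso
        apply hN0
        have h00 : N 0 0 = 0 := by
          rw [h01, h10] at hdet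
          have : N 0 0 * N 0 0 = 0 := by linear_combination -hdet
          exact mul_self_eq_zero.1 this
        ext i j
        fin_cases i <;> fin_cases j
        · exact h00
        · exact h01
        · exact h10
        · simpa [h00] using hn11
      · have k1 : N 1 0 ^ 2 * ((a + d) ^ 2 - 4 * (a * d - b * c)) = 0 := by
          have E3 : (a - d) * N 1 0 = 2 * N 0 0 * c := by linear_combination -e3
          have E1 : b * N 1 0 = N 0 1 * c := by linear_combination e1
          have : (a - d) ^ 2 * N 1 0 ^ 2 = 4 * N 0 0 ^ 2 * c ^ 2 := by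
            calc (a - d) ^ 2 * N 1 0 ^ 2 = ((a - d) * N 1 0) ^ 2 := by ring
              _ = _ := by rw [E3]; ring
          have h2 : 4 * b * c * N 1 0 ^ 2 = 4 * c ^ 2 * (N 0 1 * N 1 0) := by
            calc 4 * b * c * N 1 0 ^ 2 = 4 * c * N 1 0 * (b * N 1 0) := by ring
              _ = _ := by rw [E1]; ring
          linear_combination this + h2 - 4 * c ^ 2 * hdet
        have k2 := (mul_eq_zero.1 k1).resolve_left (pow_ne_zero 2 h10)
        rw [hx] at k2
        linear_combination k2
    · have k1 : N 0 1 ^ 2 * ((a + d) ^ 2 - 4 * (a * d - b * c)) = 0 := by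
        have E2 : (a - d) * N 0 1 = 2 * N 0 0 * b := by linear_combination e2
        have E1 : b * N 1 0 = N 0 1 * c := by linear_combination e1
        have : (a - d) ^ 2 * N 0 1 ^ 2 = 4 * N 0 0 ^ 2 * b ^ 2 := by
          calc (a - d) ^ 2 * N 0 1 ^ 2 = ((a - d) * N 0 1) ^ 2 := by ring
            _ = _ := by rw [E2]; ring
        have h2 : 4 * b * c * N 0 1 ^ 2 = 4 * b ^ 2 * (N 0 1 * N 1 0) := by
          calc 4 * b * c * N 0 1 ^ 2 = 4 * b * N 0 1 * (N 0 1 * c) := by ring
            _ = _ := by rw [← E1]; ring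
        linear_combination this + h2 - 4 * b ^ 2 * hdet
      have k2 := (mul_eq_zero.1 k1).resolve_left (pow_ne_zero 2 h01)
      rw [hx] at k2
      linear_combination k2
  have hcases : a + d = 2 ∨ a + d = -2 := by
    have : (a + d - 2) * (a + d + 2) = 0 := by linear_combination hD
    rcases mul_eq_zero.1 this with h | h
    · left; linear_combination h
    · right; linear_combination h
  -- Cayley-Hamilton
  have hCH : ∀ s : F, a + d = 2 * s → s ^ 2 = 1 →
      (x - s • (1 : Matrix (Fin 2) (Fin 2) F)) ^ 2 = 0 := by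
    intro s hs hs2
    rw [pow_two]
    have hd' : d = 2 * s - a := by linear_combination hs
    have ha' : a = 2 * s - d := by linear_combination hs
    ext i j
    fin_cases i <;> fin_cases j <;> simp [Matrix.mul_apply, Fin.sum_univ_two, ← ha, ← hb, ← hcc, ← hd]
    · linear_combination -hx + a * hd' + hs2
    · linear_combination b * hs
    · linear_combination c * hs
    · linear_combination -hx + d * ha' + hs2
  have hfin : ∀ s : F, a + d = 2 * s → s ^ 2 = 1 →
      x ^ p = s ^ p • (1 : Matrix (Fin 2) (Fin 2) F) := by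
    intro s hs hs2
    have h1 := hCH s hs hs2
    have h2 : (x - s • (1 : Matrix (Fin 2) (Fin 2) F)) ^ p = 0 := by
      obtain ⟨k, hk⟩ : ∃ k, p = 2 + k := ⟨p - 2, by have := (Fact.out : p.Prime).two_le; omega⟩
      rw [hk, pow_add, h1, zero_mul]
    have hcomm : Commute x (s • (1 : Matrix (Fin 2) (Fin 2) F)) := by
      rw [Commute, SemiconjBy]
      simp
    rw [sub_pow_char_of_commute (p := p) hcomm, smul_pow, one_pow] at h2
    exact sub_eq_zero.1 h2
  rcases hcases with h | h
  · left
    have := hfin 1 (by rw [h]; ring) (by ring)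
    rw [this]
    simp
  · right
    have := hfin (-1) (by rw [h]; ring) (by ring)
    rw [this, hodd.neg_one_pow]
    simp

/-- The same for elements of `SL₂(F)`. -/
theorem pow_of_comm_unipotent (p : ℕ) [Fact p.Prime] [CharP F p] (hp2 : p ≠ 2)
    {w x : SpecialLinearGroup (Fin 2) F} (hw : w ^ p = 1) (hw1 : w ≠ 1) (hc : x * w = w * x) :
    x ^ p = 1 ∨ x ^ p = -1 := by
  have h1 : (w : Matrix (Fin 2) (Fin 2) F) ^ p = 1 := by
    have := congrArg (fun m : SpecialLinearGroup (Fin 2) F => (m : Matrix (Fin 2) (Fin 2) F)) hw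
    simpa using this
  have h2 : (w : Matrix (Fin 2) (Fin 2) F) ≠ 1 := by
    intro h
    apply hw1
    apply Subtype.ext
    exact h
  have h3 : (x : Matrix (Fin 2) (Fin 2) F) * (w : Matrix (Fin 2) (Fin 2) F) =
      (w : Matrix (Fin 2) (Fin 2) F) * (x : Matrix (Fin 2) (Fin 2) F) := by
    have := congrArg (fun m : SpecialLinearGroup (Fin 2) F => (m : Matrix (Fin 2) (Fin 2) F)) hc
    simpa using this
  rcases pow_of_comm_unipotent_mat p hp2 h1 h2 x.2 h3 with h | h
  · left
    apply Subtype.ext
    exact h
  · right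
    apply Subtype.ext
    exact h

section Group

variable {L : Type*} [Group L]

theorem trace_eq_neg {A Ai X : Matrix (Fin 2) (Fin 2) F} (h1 : A * Ai = 1) (h2 : Ai * A = 1)
    (h : A * X = -(X * A)) : X.trace = -X.trace :=
  calc X.trace = (X * A * Ai).trace := by rw [mul_assoc, h1, mul_one]
    _ = (-(A * X) * Ai).trace := by rw [h, neg_neg]
    _ = -(A * X * Ai).trace := by rw [neg_mul, Matrix.trace_neg]
    _ = -(Ai * (A * X)).trace := by rw [Matrix.trace_mul_comm]
    _ = -X.trace := by rw [← mul_assoc, h2, one_mul]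

/-- The centralizer of an element `y` of `PSL₂(F)` with `y² ≠ 1` is commutative. -/
theorem comm_of_sq_ne_one (h2 : (2 : F) ≠ 0) (e : L ≃* Matrix.ProjectiveSpecialLinearGroup (Fin 2) F)
    {y g h : L} (hy : y * y ≠ 1) (hg : g * y = y * g) (hh : h * y = y * h) : g * h = h * g := by
  classical
  obtain ⟨π, hπ, hk⟩ := exists_hom h2 e
  obtain ⟨x, rfl⟩ := hπ y
  obtain ⟨a, rfl⟩ := hπ g
  obtain ⟨b, rfl⟩ := hπ h
  have hneg : π (-1) = 1 := (hk _).2 (Or.inr rfl)
  -- no element sends `x` to `-x`
  have key : ∀ a : SpecialLinearGroup (Fin 2) F, π a * π x = π x * π a → a * x = x * a := by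
    intro a ha
    rw [← map_mul, ← map_mul, map_eq_iff π hk] at ha
    rcases ha with ha | ha
    · exact ha
    · exfalso
      apply hy
      have h2' : (x : Matrix (Fin 2) (Fin 2) F).trace = -(x : Matrix (Fin 2) (Fin 2) F).trace := by
        refine trace_eq_neg (A := (a : Matrix (Fin 2) (Fin 2) F))
          (Ai := ((a⁻¹ : SpecialLinearGroup (Fin 2) F) : Matrix (Fin 2) (Fin 2) F)) ?_ ?_ ?_
        · exact congrArg (fun m : SpecialLinearGroup (Fin 2) F => (m : Matrix (Fin 2) (Fin 2) F))
            (mul_inv_cancel a)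
        · exact congrArg (fun m : SpecialLinearGroup (Fin 2) F => (m : Matrix (Fin 2) (Fin 2) F))
            (inv_mul_cancel a)
        · exact congrArg (fun m : SpecialLinearGroup (Fin 2) F => (m : Matrix (Fin 2) (Fin 2) F)) ha
      have h6 : (x : Matrix (Fin 2) (Fin 2) F).trace = 0 := by
        have : 2 * (x : Matrix (Fin 2) (Fin 2) F).trace = 0 := by linear_combination h2'
        exact (mul_eq_zero.1 this).resolve_left h2
      rw [Matrix.trace_fin_two] at h6
      have h7 : x * x = -1 := by
        apply sq_of_tr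
        change (x : Matrix (Fin 2) (Fin 2) F) 1 1 = -(x : Matrix (Fin 2) (Fin 2) F) 0 0
        linear_combination h6
      rw [← map_mul, h7, hneg]
  have hax := key a hg
  have hbx := key b hh
  have hns : ∀ r : F, (x : Matrix (Fin 2) (Fin 2) F) ≠ scalar (Fin 2) r := by
    intro r hr
    apply hy
    have hdet : r * r = 1 := by
      have := x.2
      change (x : Matrix (Fin 2) (Fin 2) F).det = 1 at this
      rw [hr, Matrix.det_fin_two] at this
      simpa using this
    have : x * x = 1 := by
      apply Subtype.ext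
      change (x : Matrix (Fin 2) (Fin 2) F) * (x : Matrix (Fin 2) (Fin 2) F) = 1
      rw [hr, ← map_mul, hdet, map_one]
    rw [← map_mul, this, map_one]
  have hab : a * b = b * a := by
    apply Subtype.ext
    refine Cfsg.Agent.OddTab.LTwo.comm_of_comm hns ?_ ?_
    · have := congrArg (fun m : SpecialLinearGroup (Fin 2) F => (m : Matrix (Fin 2) (Fin 2) F)) hax
      simpa using this
    · have := congrArg (fun m : SpecialLinearGroup (Fin 2) F => (m : Matrix (Fin 2) (Fin 2) F)) hbx
      simpa using this
  rw [← map_mul, hab, map_mul]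

/-- In `PSL₂(F)`, `char F = p` odd, elements commuting with a nontrivial element `z` with `z ^ p = 1` satisfy
`y ^ p = 1`. -/
theorem pow_of_comm (p : ℕ) [Fact p.Prime] [CharP F p] (hp2 : p ≠ 2)
    (e : L ≃* Matrix.ProjectiveSpecialLinearGroup (Fin 2) F)
    {y z : L} (hz : z ^ p = 1) (hz1 : z ≠ 1) (hc : y * z = z * y) : y ^ p = 1 := by
  classical
  have hodd : Odd p := (Fact.out : p.Prime).odd_of_ne_two hp2
  have h2 : (2 : F) ≠ 0 := by
    intro h
    have : ((2 : ℕ) : F) = 0 := by exact_mod_cast h
    rw [CharP.cast_eq_zero_iff F p] at this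
    exact hp2 ((Nat.prime_dvd_prime_iff_eq (Fact.out : p.Prime) Nat.prime_two).1 this)
  obtain ⟨π, hπ, hk⟩ := exists_hom h2 e
  have hneg : π (-1) = 1 := (hk _).2 (Or.inr rfl)
  obtain ⟨x, rfl⟩ := hπ y
  -- a lift of `z` with `w ^ p = 1`
  obtain ⟨w, hw, hwp⟩ : ∃ w, π w = z ∧ w ^ p = 1 := by
    obtain ⟨w, rfl⟩ := hπ z
    rw [← map_pow] at hz
    rcases (hk _).1 hz with h | h
    · exact ⟨w, rfl, h⟩
    · refine ⟨-w, ?_, ?_⟩
      · rw [map_eq_iff π hk]
        right
        rfl
      · rw [hodd.neg_pow, h, neg_neg]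
  subst hw
  have hw1 : w ≠ 1 := by
    rintro rfl
    exact hz1 (map_one π)
  have hc' : x * w = w * x := by
    rw [← map_mul, ← map_mul, map_eq_iff π hk] at hc
    rcases hc with h | h
    · exact h
    · exfalso
      -- `x w x⁻¹ = -w`, `p`-th powers
      have h1 : x * w * x⁻¹ = -w := by
        rw [h, neg_mul, mul_assoc, mul_inv_cancel, mul_one]
      have h3 : (x * w * x⁻¹) ^ p = (-w) ^ p := by rw [h1]
      rw [conj_pow, hodd.neg_pow, hwp, mul_one, mul_inv_cancel] at h3
      have h4 : (1 : F) = -1 := by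
        have := congrArg (fun m : SpecialLinearGroup (Fin 2) F => (m : Matrix (Fin 2) (Fin 2) F) 0 0) h3
        simpa using this
      apply h2
      linear_combination h4
  rcases pow_of_comm_unipotent p hp2 hwp hw1 hc' with h | h
  · rw [← map_pow, h, map_one]
  · rw [← map_pow, h, hneg]

/-- A noncyclic commutative finite group contains a noncyclic subgroup of prime power order. -/
theorem exists_noncyclic_pgroup [Finite L] (H : Subgroup L) (hH : ¬ IsCyclic H)
    (hc : ∀ a ∈ H, ∀ b ∈ H, a * b = b * a) :
    ∃ (r : ℕ) (R : Subgroup L), r.Prime ∧ R ≤ H ∧ IsPGroup r R ∧ ¬ IsCyclic R := by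
  by_contra hcon
  push Not at hcon
  apply hH
  have hcomm : ∀ a b : H, a * b = b * a := fun a b => Subtype.ext (hc a a.2 b b.2)
  have hz : IsZGroup H := by
    refine ⟨fun r hr P => ?_⟩
    have hcyc := hcon r ((P : Subgroup H).map H.subtype) hr (Subgroup.map_subtype_le _)
      (P.isPGroup'.map _)
    have e := (P : Subgroup H).equivMapOfInjective H.subtype H.subtype_injective
    exact isCyclic_of_surjective e.symm e.symm.surjective
  have hn : Group.IsNilpotent H := by
    letI : CommGroup H := { mul_comm := hcomm }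
    infer_instance
  infer_instance

theorem sq_one_of_two_group [Finite F] [Finite L] (h2 : (2 : F) ≠ 0)
    (e : L ≃* Matrix.ProjectiveSpecialLinearGroup (Fin 2) F)
    {y : L} (R : Subgroup L) (hR : IsPGroup 2 R) (hRc : ¬ IsCyclic R)
    (hc : ∀ a ∈ R, ∀ b ∈ R, a * b = b * a) (hy : ∀ a ∈ R, y * a = a * y) : y * y = 1 := by
  haveI : Fact (Nat.Prime 2) := ⟨Nat.prime_two⟩
  -- two different involutions
  have hex : ¬ Cfsg.Agent.Solvable.UniqueOrderP.UniqueP 2 R := by
    intro hU
    apply hRc
    obtain ⟨a, ha⟩ := Cfsg.Agent.Solvable.UniqueOrderP.exists_eq_zpowers_of_comm 2 hR hU ⊤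
      ⟨⟨fun a b => Subtype.ext (Subtype.ext (hc a.1.1 a.1.2 b.1.1 b.1.2))⟩⟩
    refine ⟨⟨a, fun x => ?_⟩⟩
    change x ∈ zpowers a
    rw [← ha]
    exact mem_top x
  rw [Cfsg.Agent.Solvable.UniqueOrderP.uniqueP_def] at hex
  push Not at hex
  obtain ⟨t, u, ht1, ht, hu, hut⟩ := hex
  have ht' : (t : L) * t = 1 := by
    have := congrArg Subtype.val ht
    rw [pow_two] at this
    exact this
  have hu' : (u : L) * u = 1 := by
    have := congrArg Subtype.val hu
    rw [pow_two] at this
    exact this
  have ht1' : (t : L) ≠ 1 := fun h => ht1 (Subtype.ext h)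
  have hu1' : (u : L) ≠ 1 := by
    intro h
    apply hut
    rw [show u = 1 from Subtype.ext h]
    exact one_mem _
  have hut' : (u : L) ≠ t := by
    intro h
    apply hut
    rw [show u = t from Subtype.ext h]
    exact mem_zpowers _
  obtain ⟨T, m, hT, -⟩ := exists_torus h2 e ht1' ht'
  have hux := hT.centralizer_four hu1' hu' hut' (hc _ u.2 _ t.2) (hy _ t.2) (hy _ u.2)
  rcases hux with h | h | h | h
  · rw [h, one_mul]
  · rw [h, ht']
  · rw [h, hu']
  · rw [h]
    have : (t : L) * u * (t * u) = (t * t) * (u * u) := by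
      rw [mul_assoc, ← mul_assoc (u : L), hc _ u.2 _ t.2, mul_assoc, mul_assoc]
    rw [this, ht', hu', one_mul]

/-- The involution case: `y` an involution with centralizer of order a power of two. -/
theorem mem_of_involution [Finite L] {y : L} {T : Subgroup L} {m j : ℕ} (hT : TorusAt y T m)
    (hm : m = 2 ^ j) (H : Subgroup L) (hH : ¬ IsCyclic H) (hy : ∀ h ∈ H, h * y = y * h) : y ∈ H := by
  by_contra hyH
  apply hH
  have hinf : ∀ h ∈ H, h ∈ T → h = 1 := by
    intro h hh hhT
    by_contra h1
    have hd : orderOf h ∣ 2 ^ j := by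
      have := orderOf_dvd_natCard (⟨h, hhT⟩ : T)
      rw [hT.card, hm, Subgroup.orderOf_mk] at this
      exact this
    obtain ⟨i, -, hi⟩ := (Nat.dvd_prime_pow Nat.prime_two).1 hd
    have hi0 : i ≠ 0 := by
      rintro rfl
      rw [pow_zero, orderOf_eq_one_iff] at hi
      exact h1 hi
    obtain ⟨i', rfl⟩ : ∃ i', i = i' + 1 := Nat.exists_eq_succ_of_ne_zero hi0
    have hpow : h ^ (2 ^ i') * h ^ (2 ^ i') = 1 := by
      rw [← pow_add, ← two_mul, ← pow_succ', ← hi, pow_orderOf_eq_one]
    have hne : h ^ (2 ^ i') ≠ 1 := by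
      intro h0
      have := orderOf_dvd_of_pow_eq_one h0
      rw [hi, Nat.pow_dvd_pow_iff_le_right (by norm_num)] at this
      omega
    rcases hT.eq_of_sq (T.pow_mem hhT _) hpow with h' | h'
    · exact hne h'
    · apply hyH
      rw [← h']
      exact H.pow_mem hh _
  by_cases hbot : ∀ h ∈ H, h = 1
  · refine ⟨⟨1, fun x => ?_⟩⟩
    rw [show x = 1 from Subtype.ext (hbot x.1 x.2)]
    exact (zpowers (1 : H)).one_mem
  · push Not at hbot
    obtain ⟨a, ha, ha1⟩ := hbot
    refine ⟨⟨⟨a, ha⟩, fun x => ?_⟩⟩
    obtain ⟨b, hb⟩ := x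
    by_cases hb1 : b = 1
    · subst hb1
      exact (zpowers (⟨a, ha⟩ : H)).one_mem
    · have haT : a ∉ T := fun h => ha1 (hinf a ha h)
      have hbT : b ∉ T := fun h => hb1 (hinf b hb h)
      have h1 := hinf _ (H.mul_mem ha hb) (hT.mul a b (hy a ha) haT (hy b hb) hbT)
      have h2 := hinf _ (H.mul_mem ha ha) (hT.mul a a (hy a ha) haT (hy a ha) haT)
      have hab : b = a := by
        have h3 : a * b = a * a := by rw [h1, h2]
        exact mul_left_cancel h3
      subst hab
      exact mem_zpowers _

/-- **`PSL₂(F)`, `|F|` a prime of the form `2^k ± 1` or `9`: every noncyclic subgroup contains its centralizer.** -/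
theorem scn_psl [Fintype F] [Finite L] (e : L ≃* Matrix.ProjectiveSpecialLinearGroup (Fin 2) F)
    (hodd : Odd (Fintype.card F))
    (hcase : ((Fintype.card F).Prime ∧ ∃ k : ℕ, Fintype.card F = 2 ^ k + 1 ∨ Fintype.card F + 1 = 2 ^ k) ∨
      Fintype.card F = 9) : SCN L := by
  classical
  obtain ⟨p, hpF⟩ := CharP.exists F
  haveI := hpF
  have hpp : p.Prime := CharP.char_is_prime F p
  haveI : Fact p.Prime := ⟨hpp⟩
  obtain ⟨f, -, hf⟩ := FiniteField.card F p
  have hp2 : p ≠ 2 := by
    rintro rfl
    rw [hf] at hodd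
    exact (Nat.not_odd_iff_even.2 ((Nat.even_pow).2 ⟨even_two, f.2.ne'⟩)) hodd
  have h2 : (2 : F) ≠ 0 := by
    intro h
    have : ((2 : ℕ) : F) = 0 := by exact_mod_cast h
    rw [CharP.cast_eq_zero_iff F p] at this
    exact hp2 ((Nat.prime_dvd_prime_iff_eq hpp Nat.prime_two).1 this)
  have hNF : Nat.card F = Fintype.card F := Nat.card_eq_fintype_card
  intro H hH y hy
  rw [mem_centralizer_iff] at hy
  by_cases hy1 : y = 1
  · rw [hy1]; exact H.one_mem
  by_cases hyy : y * y = 1
  · -- involutions
    obtain ⟨T, m, hT, hm⟩ := exists_torus h2 e hy1 hyy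
    rw [hNF] at hm
    have hj : ∃ j, m = 2 ^ j := by
      rcases hcase with ⟨-, k, hk⟩ | h9
      · rcases Nat.eq_zero_or_pos k with hk0 | hk0
        · subst hk0
          rcases hk with hk | hk <;> rcases hm with ⟨h4, hm⟩ | ⟨h4, hm⟩ <;> omega
        · obtain ⟨k', rfl⟩ : ∃ k', k = k' + 1 := Nat.exists_eq_succ_of_ne_zero (by omega)
          rcases hk with hk | hk <;> rcases hm with ⟨h4, hm⟩ | ⟨h4, hm⟩
          · refine ⟨k', ?_⟩
            rw [pow_succ] at hk
            omega
          · rcases Nat.eq_zero_or_pos k' with hk1 | hk1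
            · subst hk1
              refine ⟨1, ?_⟩
              norm_num at hk
              omega
            · obtain ⟨k'', rfl⟩ : ∃ k'', k' = k'' + 1 := Nat.exists_eq_succ_of_ne_zero (by omega)
              rw [pow_succ, pow_succ] at hk
              omega
          · rcases Nat.eq_zero_or_pos k' with hk1 | hk1
            · subst hk1
              have h1 := Fintype.one_lt_card (α := F)
              rw [zero_add, pow_one] at hk
              omega
            · obtain ⟨k'', rfl⟩ : ∃ k'', k' = k'' + 1 := Nat.exists_eq_succ_of_ne_zero (by omega)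
              rw [pow_succ, pow_succ] at hk
              omega
          · refine ⟨k', ?_⟩
            rw [pow_succ] at hk
            omega
      · rcases hm with ⟨h4, hm⟩ | ⟨h4, hm⟩
        · exact ⟨2, by omega⟩
        · omega
    obtain ⟨j, hj⟩ := hj
    exact mem_of_involution hT hj H hH hy
  · -- not an involution
    have hc : ∀ a ∈ H, ∀ b ∈ H, a * b = b * a := fun a ha b hb =>
      comm_of_sq_ne_one h2 e hyy (hy a ha) (hy b hb)
    obtain ⟨r, R, hr, hRH, hR, hRc⟩ := exists_noncyclic_pgroup H hH hc
    haveI : Fact r.Prime := ⟨hr⟩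
    by_cases hr2 : r = 2
    · subst hr2
      exact absurd (sq_one_of_two_group h2 e R hR hRc (fun a ha b hb => hc a (hRH ha) b (hRH hb))
        (fun a ha => (hy a (hRH ha)).symm)) hyy
    · by_cases hrF : r ∣ Fintype.card F
      · -- the characteristic
        have hrp : r = p := by
          rw [hf] at hrF
          exact (Nat.prime_dvd_prime_iff_eq hr hpp).1 (hr.dvd_of_dvd_pow hrF)
        subst hrp
        have hcard := Cfsg.Agent.Walter.MetaPSL.card_mul hodd e
        obtain ⟨i, hi⟩ := IsPGroup.iff_card.1 hR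
        have hi2 : 2 ≤ i := by
          by_contra hlt
          push Not at hlt
          apply hRc
          interval_cases i
          · rw [pow_zero] at hi
            have : Subsingleton R := (Nat.card_eq_one_iff_unique.1 hi).1
            infer_instance
          · rw [pow_one] at hi
            exact isCyclic_of_prime_card hi
        have hRL : Nat.card R ∣ Nat.card L := card_subgroup_dvd_card R
        have hdvd : r ^ i ∣ Fintype.card F * (Fintype.card F ^ 2 - 1) := by
          rw [← hcard, ← hi]
          exact hRL.mul_right 2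
        have hcop : (r ^ i).Coprime (Fintype.card F ^ 2 - 1) := by
          apply Nat.Coprime.pow_left
          rw [hr.coprime_iff_not_dvd]
          intro hd
          have h3 : r ∣ Fintype.card F ^ 2 := hrF.trans (dvd_pow_self _ (by norm_num))
          have h4 : 1 ≤ Fintype.card F ^ 2 := Nat.one_le_pow _ _ Fintype.card_pos
          have h5 : r ∣ Fintype.card F ^ 2 - (Fintype.card F ^ 2 - 1) := Nat.dvd_sub h3 hd
          rw [Nat.sub_sub_self h4] at h5
          exact hr.one_lt.ne' (Nat.dvd_one.1 h5)
        have hdvd2 : r ^ i ∣ Fintype.card F := hcop.dvd_of_dvd_mul_right hdvd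
        rcases hcase with ⟨hprime, -⟩ | h9
        · exfalso
          have h6 : r ^ 2 ∣ Fintype.card F := (pow_dvd_pow r hi2).trans hdvd2
          rcases (Nat.dvd_prime hprime).1 h6 with h7 | h7
          · have := hr.one_lt
            nlinarith
          · have h8 : r ∣ r ^ 2 := dvd_pow_self r (by norm_num)
            rw [← h7] at hprime
            exact (Nat.Prime.not_prime_pow (le_refl 2)) hprime
        · -- `|F| = 9`
          have hr3 : r = 3 := by
            rw [h9] at hrF
            have : r ∣ 3 ^ 2 := by norm_num; exact hrF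
            exact (Nat.prime_dvd_prime_iff_eq hr Nat.prime_three).1 (hr.dvd_of_dvd_pow this)
          subst hr3
          have hcardL : Nat.card L = 360 := by
            rw [h9] at hcard
            omega
          -- a nontrivial element of `R`
          have hRne : ∃ z ∈ R, z ≠ 1 := by
            by_contra hcon
            push Not at hcon
            apply hRc
            refine ⟨⟨1, fun x => ?_⟩⟩
            rw [show x = 1 from Subtype.ext (hcon x.1 x.2)]
            exact (zpowers (1 : R)).one_mem
          obtain ⟨z, hz, hz1⟩ := hRne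
          have hz3 := (Cfsg.Agent.Walter.MetaPSL.abelian_of_isPGroup e (p := 3) R hR z hz z hz).2
          have hy3 : y ^ 3 = 1 := pow_of_comm 3 hp2 e hz3 hz1 (hy z (hRH hz)).symm
          have hY : IsPGroup 3 (zpowers y) := by
            rw [IsPGroup.iff_card]
            refine ⟨1, ?_⟩
            rw [Nat.card_zpowers, pow_one]
            exact orderOf_eq_prime hy3 hy1
          have hYR : zpowers y ≤ normalizer (R : Set L) := by
            rw [zpowers_le]
            rw [mem_normalizer_iff]
            intro h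
            constructor
            · intro hh
              rw [← hy h (hRH hh), mul_inv_cancel_right]
              exact hh
            · intro hh
              have h1 := hy _ (hRH hh)
              have h2 : y * h = h * y := by
                have : y * h * y⁻¹ * y = y * (y * h * y⁻¹) := h1
                rw [inv_mul_cancel_right] at this
                have h3 : h = y * h * y⁻¹ := by
                  have := mul_left_cancel this
                  exact this
                calc y * h = y * h * y⁻¹ * y := by rw [inv_mul_cancel_right]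
                  _ = h * y := by rw [← h3]
              rw [h2, mul_inv_cancel_right] at hh
              exact hh
          have hsup : IsPGroup 3 (zpowers y ⊔ R : Subgroup L) := hY.to_sup_of_normal_right' hR hYR
          obtain ⟨j, hj⟩ := IsPGroup.iff_card.1 hsup
          have hj2 : j ≤ 2 := by
            by_contra hlt
            push Not at hlt
            have h1 : 3 ^ 3 ∣ Nat.card L := (pow_dvd_pow 3 hlt).trans (by rw [← hj]; exact card_subgroup_dvd_card _)
            rw [hcardL] at h1
            norm_num at h1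
          have hle : R ≤ zpowers y ⊔ R := le_sup_right
          have heq : R = zpowers y ⊔ R := by
            apply eq_of_le_of_card_ge hle
            rw [hi, hj]
            exact Nat.pow_le_pow_right (by norm_num) (by omega)
          apply hRH
          rw [heq]
          exact (le_sup_left : zpowers y ≤ zpowers y ⊔ R) (mem_zpowers y)
      · exact absurd (Cfsg.Agent.Walter.MetaPSL.isCyclic_of_isPGroup hodd e hr hr2 hrF R hR) hRc

end Group

end Cfsg.Agent.H479.SelfCent
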