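/-
Copyright (c) 2026. Two commuting-with-`t` involutions whose product has order `3`, in `A_n`, `n ≥ 9`
(task 180, for S3263).
-/
import Mathlib

namespace Cfsg.Agent.H479.AltThree

open Equiv Equiv.Perm

variable {α : Type*} [DecidableEq α]

theorem comm_swap {σ : Perm α} {x y x' y' : α} (hx : σ x = x') (hy : σ y = y') :
    σ * swap x y = swap x' y' * σ := by
  rw [Equiv.mul_swap_eq_swap_mul, hx, hy]

theorem swap_comm_of_ne {x y z w : α} (h : [x, y, z, w].Nodup) : swap x y * swap z w = swap z w * swap x y :=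
  (Equiv.Perm.disjoint_swap_swap h).commute

theorem sq_swap {x y z w : α} (h : [x, y, z, w].Nodup) :
    swap x y * swap z w * (swap x y * swap z w) = 1 := by
  have e := swap_comm_of_ne h
  calc swap x y * swap z w * (swap x y * swap z w) = swap z w * swap x y * (swap x y * swap z w) := by rw [e]
    _ = 1 := by
      rw [mul_assoc, ← mul_assoc (swap x y) (swap x y) (swap z w), Equiv.swap_mul_self, one_mul,
        Equiv.swap_mul_self]

variable [Fintype α]

theorem cube {x y z : α} (h1 : x ≠ y) (h2 : y ≠ z) (h3 : x ≠ z) :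
    (swap x y * swap y z) ^ 3 = 1 := by
  have := Equiv.Perm.isThreeCycle_swap_mul_swap_same (a := y) (b := x) (c := z) h1.symm h2 h3
  rw [Equiv.swap_comm y x] at this
  have h := this.orderOf
  rw [← h]; exact pow_orderOf_eq_one _

theorem key {n : ℕ} (hn : 9 ≤ n) (σ : Perm (Fin n)) (h1 : σ ≠ 1) (h2 : σ * σ = 1) (hs : sign σ = 1) :
    ∃ a b : Perm (Fin n), sign a = 1 ∧ sign b = 1 ∧ a * σ = σ * a ∧ b * σ = σ * b ∧ a * a = 1 ∧ b * b = 1 ∧
      a * b ≠ 1 ∧ a * b * (a * b) * (a * b) = 1 := by
  have hinv : ∀ x, σ (σ x) = x := fun x => by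
    have := congrArg (fun τ : Perm (Fin n) => τ x) h2
    simpa using this
  obtain ⟨p, hp⟩ : ∃ p, σ p ≠ p := by
    by_contra hc
    push Not at hc
    exact h1 (Equiv.ext hc)
  obtain ⟨r, hr, hrp, hrq⟩ : ∃ r, σ r ≠ r ∧ r ≠ p ∧ r ≠ σ p := by
    by_contra hc
    push Not at hc
    have e : σ = swap p (σ p) := by
      ext x
      by_cases hx : x = p
      · subst hx; rw [Equiv.swap_apply_left]
      · by_cases hx' : x = σ p
        · rw [hx', Equiv.swap_apply_right, hinv]
        · rw [Equiv.swap_apply_of_ne_of_ne hx hx']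
          by_contra hne
          have hne' : σ x ≠ x := fun e => hne (by rw [e])
          exact hx' (hc x hne' hx)
    have h : sign σ = -1 := by
      rw [e, Equiv.Perm.sign_swap (Ne.symm hp)]
    rw [h] at hs
    exact absurd hs (by decide)
  have hrs : σ r ≠ p := fun h => hrq (by rw [← h, hinv])
  have hrs' : σ r ≠ σ p := fun h => hrp (σ.injective h)
  by_cases hu : ∃ u, σ u ≠ u ∧ u ≠ p ∧ u ≠ σ p ∧ u ≠ r ∧ u ≠ σ r
  · obtain ⟨u, hu, hup, huq, hur, hus⟩ := hu
    have g1 : σ u ≠ p := fun h => huq (by rw [← h, hinv])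
    have g2 : σ u ≠ σ p := fun h => hup (σ.injective h)
    have g3 : σ u ≠ r := fun h => hus (by rw [← h, hinv])
    have g4 : σ u ≠ σ r := fun h => hur (σ.injective h)
    have n1 : [p, r, σ p, σ r].Nodup := by
      simp only [List.nodup_cons, List.mem_cons, List.not_mem_nil, or_false, not_or, not_false_eq_true,
        List.nodup_nil, and_true]
      exact ⟨⟨hrp.symm, hp.symm, hrs.symm⟩, ⟨hrq, hr.symm⟩, hrs'.symm⟩
    have n2 : [r, u, σ r, σ u].Nodup := by
      simp only [List.nodup_cons, List.mem_cons, List.not_mem_nil, or_false, not_or, not_false_eq_true,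
        List.nodup_nil, and_true]
      exact ⟨⟨hur.symm, hr.symm, g3.symm⟩, ⟨hus, hu.symm⟩, g4.symm⟩
    have n3 : [σ p, σ r, r, u].Nodup := by
      simp only [List.nodup_cons, List.mem_cons, List.not_mem_nil, or_false, not_or, not_false_eq_true,
        List.nodup_nil, and_true]
      exact ⟨⟨hrs'.symm, hrq.symm, huq.symm⟩, ⟨hr, hus.symm⟩, hur.symm⟩
    have n4 : [p, r, σ r, σ u].Nodup := by
      simp only [List.nodup_cons, List.mem_cons, List.not_mem_nil, or_false, not_or, not_false_eq_true,
        List.nodup_nil, and_true]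
      exact ⟨⟨hrp.symm, hrs.symm, g1.symm⟩, ⟨hr.symm, g3.symm⟩, g4.symm⟩
    have n5 : [r, u, σ p, σ r].Nodup := by
      simp only [List.nodup_cons, List.mem_cons, List.not_mem_nil, or_false, not_or, not_false_eq_true,
        List.nodup_nil, and_true]
      exact ⟨⟨hur.symm, hrq, hr.symm⟩, ⟨huq, hus⟩, hrs'.symm⟩
    set A := swap p r with hA
    set A' := swap (σ p) (σ r) with hA'
    set B := swap r u with hB
    set B' := swap (σ r) (σ u) with hB'
    have c1 : σ * A = A' * σ := comm_swap rfl rfl
    have c2 : σ * A' = A * σ := comm_swap (hinv p) (hinv r)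
    have c3 : σ * B = B' * σ := comm_swap rfl rfl
    have c4 : σ * B' = B * σ := comm_swap (hinv r) (hinv u)
    have d1 : A * A' = A' * A := swap_comm_of_ne n1
    have d2 : B * B' = B' * B := swap_comm_of_ne n2
    have d3 : A' * B = B * A' := swap_comm_of_ne n3
    have d4 : A * B' = B' * A := swap_comm_of_ne n4
    have e1 : (A * B) ^ 3 = 1 := cube hrp.symm hur.symm hup.symm
    have e2 : (A' * B') ^ 3 = 1 := cube hrs'.symm g4.symm g2.symm
    have e3 : A * A' * (B * B') = A * B * (A' * B') := by
      calc A * A' * (B * B') = A * (A' * B) * B' := by group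
        _ = A * (B * A') * B' := by rw [d3]
        _ = A * B * (A' * B') := by group
    have hcomm : Commute (A * B) (A' * B') := by
      have q1 : Commute A A' := d1
      have q2 : Commute A B' := d4
      have q3 : Commute B A' := d3.symm
      have q4 : Commute B B' := d2
      exact (q1.mul_right q2).mul_left (q3.mul_right q4)
    refine ⟨A * A', B * B', ?_, ?_, ?_, ?_, sq_swap n1, sq_swap n2, ?_, ?_⟩
    · rw [Equiv.Perm.sign_mul, hA, hA', sign_swap hrp.symm, sign_swap hrs'.symm]; decide
    · rw [Equiv.Perm.sign_mul, hB, hB', sign_swap hur.symm, sign_swap g4.symm]; decide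
    · calc A * A' * σ = A * (A' * σ) := mul_assoc _ _ _
        _ = A * (σ * A) := by rw [c1]
        _ = A * σ * A := (mul_assoc _ _ _).symm
        _ = σ * A' * A := by rw [c2]
        _ = σ * (A' * A) := mul_assoc _ _ _
        _ = σ * (A * A') := by rw [d1]
    · calc B * B' * σ = B * (B' * σ) := mul_assoc _ _ _
        _ = B * (σ * B) := by rw [c3]
        _ = B * σ * B := (mul_assoc _ _ _).symm
        _ = σ * B' * B := by rw [c4]
        _ = σ * (B' * B) := mul_assoc _ _ _
        _ = σ * (B * B') := by rw [d2]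
    · intro h
      rw [e3] at h
      have := congrArg (fun τ : Perm (Fin n) => τ u) h
      simp only [Perm.mul_apply, Perm.one_apply] at this
      rw [hA, hA', hB, hB'] at this
      rw [Equiv.swap_apply_of_ne_of_ne (a := σ r) (b := σ u) (x := u) hus hu.symm,
        Equiv.swap_apply_of_ne_of_ne (a := σ p) (b := σ r) (x := u) huq hus,
        Equiv.swap_apply_right, Equiv.swap_apply_right] at this
      exact hup this.symm
    · rw [e3]
      have : (A * B * (A' * B')) ^ 3 = 1 := by rw [hcomm.mul_pow, e1, e2, one_mul]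
      rw [pow_three'] at this
      exact this
  · push Not at hu
    have hfix : ∀ u, u ∉ ({p, σ p, r, σ r} : Finset (Fin n)) → σ u = u := by
      intro u hu'
      simp only [Finset.mem_insert, Finset.mem_singleton, not_or] at hu'
      by_contra hne
      exact hu'.2.2.2 (hu u hne hu'.1 hu'.2.1 hu'.2.2.1)
    have hcard : 5 ≤ (({p, σ p, r, σ r} : Finset (Fin n))ᶜ).card := by
      rw [Finset.card_compl, Fintype.card_fin]
      have : ({p, σ p, r, σ r} : Finset (Fin n)).card ≤ 4 := Finset.card_le_four
      omega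
    obtain ⟨s, hs1, hs2⟩ := Finset.exists_subset_card_eq hcard
    let e := s.equivFinOfCardEq hs2
    let c : Fin 5 → Fin n := fun i => (e.symm i : Fin n)
    have hcinj : Function.Injective c := fun i j h => e.symm.injective (Subtype.ext h)
    have hcf : ∀ i, σ (c i) = c i := fun i =>
      hfix _ (Finset.mem_compl.1 (hs1 (e.symm i).2))
    have hne : ∀ i j, i ≠ j → c i ≠ c j := fun i j h h' => h (hcinj h')
    have n1 : [c 0, c 1, c 3, c 4].Nodup := by
      have : ([0, 1, 3, 4] : List (Fin 5)).Nodup := by decide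
      exact (List.nodup_map_iff hcinj (l := [0, 1, 3, 4])).2 this
    have n2 : [c 1, c 2, c 3, c 4].Nodup := by
      have : ([1, 2, 3, 4] : List (Fin 5)).Nodup := by decide
      exact (List.nodup_map_iff hcinj (l := [1, 2, 3, 4])).2 this
    set A := swap (c 0) (c 1) with hA
    set B := swap (c 1) (c 2) with hB
    set D := swap (c 3) (c 4) with hD
    have c1 : σ * A = A * σ := comm_swap (hcf 0) (hcf 1)
    have c2 : σ * B = B * σ := comm_swap (hcf 1) (hcf 2)
    have c3 : σ * D = D * σ := comm_swap (hcf 3) (hcf 4)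
    have d1 : A * D = D * A := swap_comm_of_ne n1
    have d2 : B * D = D * B := swap_comm_of_ne n2
    have dd : D * D = 1 := Equiv.swap_mul_self _ _
    have e1 : (A * B) ^ 3 = 1 := cube (hne 0 1 (by decide)) (hne 1 2 (by decide)) (hne 0 2 (by decide))
    have e3 : A * D * (B * D) = A * B := by
      calc A * D * (B * D) = A * (D * B) * D := by group
        _ = A * (B * D) * D := by rw [d2]
        _ = A * B * (D * D) := by group
        _ = A * B := by rw [dd, mul_one]
    refine ⟨A * D, B * D, ?_, ?_, ?_, ?_, sq_swap n1, sq_swap n2, ?_, ?_⟩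
    · rw [Equiv.Perm.sign_mul, hA, hD, sign_swap (hne 0 1 (by decide)), sign_swap (hne 3 4 (by decide))]; decide
    · rw [Equiv.Perm.sign_mul, hB, hD, sign_swap (hne 1 2 (by decide)), sign_swap (hne 3 4 (by decide))]; decide
    · calc A * D * σ = A * (D * σ) := mul_assoc _ _ _
        _ = A * (σ * D) := by rw [c3]
        _ = A * σ * D := (mul_assoc _ _ _).symm
        _ = σ * A * D := by rw [c1]
        _ = σ * (A * D) := mul_assoc _ _ _
    · calc B * D * σ = B * (D * σ) := mul_assoc _ _ _
        _ = B * (σ * D) := by rw [c3]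
        _ = B * σ * D := (mul_assoc _ _ _).symm
        _ = σ * B * D := by rw [c2]
        _ = σ * (B * D) := mul_assoc _ _ _
    · rw [e3]
      intro h
      have := congrArg (fun τ : Perm (Fin n) => τ (c 2)) h
      simp only [Perm.mul_apply, Perm.one_apply] at this
      rw [hA, hB, Equiv.swap_apply_right, Equiv.swap_apply_right] at this
      exact hne 0 2 (by decide) this
    · rw [e3, ← pow_three', e1]

theorem alt_three {n : ℕ} (hn : 9 ≤ n) (t : ↥(alternatingGroup (Fin n))) (ht : orderOf t = 2) :
    ∃ a b : ↥(alternatingGroup (Fin n)), a * t = t * a ∧ b * t = t * b ∧ a * a = 1 ∧ b * b = 1 ∧ a * b ≠ 1 ∧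
      a * b * (a * b) * (a * b) = 1 := by
  have h1 : (t : Perm (Fin n)) ≠ 1 := by
    intro h
    have : t = 1 := Subtype.ext h
    rw [this, orderOf_one] at ht
    exact absurd ht (by norm_num)
  have h2 : (t : Perm (Fin n)) * (t : Perm (Fin n)) = 1 := by
    have := pow_orderOf_eq_one t
    rw [ht, pow_two] at this
    exact congrArg Subtype.val this
  obtain ⟨a, b, ha, hb, h3, h4, h5, h6, h7, h8⟩ := key hn (t : Perm (Fin n)) h1 h2 (Equiv.Perm.mem_alternatingGroup.1 t.2)
  refine ⟨⟨a, Equiv.Perm.mem_alternatingGroup.2 ha⟩, ⟨b, Equiv.Perm.mem_alternatingGroup.2 hb⟩,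
    Subtype.ext h3, Subtype.ext h4, Subtype.ext h5, Subtype.ext h6, fun h => h7 (congrArg Subtype.val h),
    Subtype.ext h8⟩

end Cfsg.Agent.H479.AltThree
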