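/-
helper479 (TEAM GEN, piece M of S3565): groups with a normal quaternion subgroup of order 8 and scalar centralizer
are 2-generated under order conditions.
-/
import Mathlib
import Cfsg.Agent.PermutationGroups.AutQuaternion
import Cfsg.Agent.H440.TwoGen.Basic

set_option autoImplicit false

namespace Cfsg.Agent.H479.GenQuat

open Subgroup QuaternionGroup Cfsg.Agent.PermutationGroups.AutQuaternion Cfsg.Agent.H440.TwoGen

/-! ### facts on the quaternion group -/

theorem gen_fact : ∀ s t : QuaternionGroup 2, s * s = a 2 → t * t = a 2 → t ≠ s → t ≠ a 2 * s →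
    ∀ g : QuaternionGroup 2, ∃ (k : Fin 4) (l : Fin 2), g = s ^ k.val * t ^ l.val := by
  decide +kernel

theorem order3_fact : ∀ x y : QuaternionGroup 2, good x y = true →
    (∀ g, cand x y (cand x y (cand x y g)) = g) → (x = a 1 ∨ x = a 2 * a 1) → ∀ g, cand x y g = g := by
  decide +kernel

theorem inner_fact : ∀ x y : QuaternionGroup 2, good x y = true → (x = a 1 ∨ x = a 2 * a 1) →
    (y = xa 0 ∨ y = a 2 * xa 0) → ∃ g : QuaternionGroup 2, ∀ t, cand x y t = g * t * g⁻¹ := by
  decide +kernel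

/-- an automorphism of order four: `i ↦ i`, `j ↦ k`. -/
theorem good4 : good (a 1) (xa 1) = true := by decide +kernel

/-- an automorphism of order three. -/
theorem good3 : good (xa 0) (xa 1) = true := by decide +kernel

theorem all_fact : ∀ x y : QuaternionGroup 2, good x y = true →
    ∃ (g : QuaternionGroup 2) (k : Fin 2) (l : Fin 3), ∀ t, cand x y t =
      g * ((cand (a 1) (xa 1))^[k.val] ((cand (xa 0) (xa 1))^[l.val] t)) * g⁻¹ := by
  decide +kernel

theorem sq4 : ∀ t : QuaternionGroup 2, cand (a 1) (xa 1) (cand (a 1) (xa 1) t) = a 1 * t * (a 1)⁻¹ := by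
  decide +kernel

theorem cube3 : ∀ t : QuaternionGroup 2,
    cand (xa 0) (xa 1) (cand (xa 0) (xa 1) (cand (xa 0) (xa 1) t)) = t := by
  decide +kernel

/-! ### parts -/

theorem exists_part {X : Type*} [Group X] [Finite X] (x : X) {r : ℕ} (hr : r.Prime) :
    ∃ m a : ℕ, ¬ r ∣ m ∧ (x ^ m) ^ (r ^ a) = 1 := by
  refine ⟨orderOf x / r ^ (orderOf x).factorization r, (orderOf x).factorization r,
    Nat.not_dvd_ordCompl hr (orderOf_pos x).ne', ?_⟩
  rw [← pow_mul, Nat.div_mul_cancel (Nat.ordProj_dvd _ _), pow_orderOf_eq_one]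

theorem mem_of_pow_mem {X : Type*} [Group X] {K : Subgroup X} {x : X} {m n : ℕ} (hn : x ^ n = 1)
    (hc : m.Coprime n) (h : x ^ m ∈ K) : x ∈ K := by
  have h1 := Nat.gcd_eq_gcd_ab m n
  rw [hc.gcd_eq_one] at h1
  have h2 : x = (x ^ m) ^ (Nat.gcdA m n) := by
    have h3 : x ^ (((1 : ℕ) : ℤ)) = x := by simp
    rw [h1, zpow_add, zpow_mul, zpow_mul, zpow_natCast, zpow_natCast, hn, one_zpow, mul_one] at h3
    exact h3.symm
  rw [h2]
  exact K.zpow_mem h _

section main

variable {X : Type*} [Group X] (N : Subgroup X) [hN : N.Normal] (e : N ≃* QuaternionGroup 2)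

/-- conjugation on the model -/
noncomputable def kap : X →* MulAut (QuaternionGroup 2) :=
  (MulAut.congr e).toMonoidHom.comp MulAut.conjNormal

theorem kap_apply (x : X) (t : QuaternionGroup 2) :
    ((e.symm (kap N e x t) : N) : X) = x * (e.symm t : N) * x⁻¹ := by
  have h1 : kap N e x t = e (MulAut.conjNormal x (e.symm t)) := rfl
  rw [h1, MulEquiv.symm_apply_apply, MulAut.conjNormal_apply]

theorem kap_coe (n : N) (t : QuaternionGroup 2) : kap N e n t = e n * t * (e n)⁻¹ := by
  apply e.symm.injective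
  apply Subtype.ext
  rw [kap_apply, map_mul, map_mul, map_inv, e.symm_apply_apply]
  rfl

variable {N e}

omit hN in
theorem N_le {K : Subgroup X} {s t : QuaternionGroup 2} (hs : s * s = a 2) (ht : t * t = a 2)
    (h1 : t ≠ s) (h2 : t ≠ a 2 * s) (hsK : ((e.symm s : N) : X) ∈ K) (htK : ((e.symm t : N) : X) ∈ K) :
    N ≤ K := by
  intro n hn
  obtain ⟨k, l, h⟩ := gen_fact s t hs ht h1 h2 (e ⟨n, hn⟩)
  have h3 : n = ((e.symm s : N) : X) ^ k.val * ((e.symm t : N) : X) ^ l.val := by
    have h4 := congrArg (fun g => ((e.symm g : N) : X)) h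
    simpa using h4
  rw [h3]
  exact K.mul_mem (K.pow_mem hsK _) (K.pow_mem htK _)

theorem eq_top_of {K : Subgroup X} (hC : (kap N e).ker ≤ K) (h : (kap N e).range ≤ K.map (kap N e)) :
    K = ⊤ := by
  rw [eq_top_iff]
  intro x _
  obtain ⟨k, hk, hkx⟩ := h ⟨x, rfl⟩
  have h1 : k⁻¹ * x ∈ (kap N e).ker := by
    rw [MonoidHom.mem_ker, map_mul, map_inv, hkx, inv_mul_cancel]
  have h2 := K.mul_mem hk (hC h1)
  rwa [mul_inv_cancel_left] at h2

/-- The inner automorphisms are in the image of `K ≥ N`. -/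
theorem inner_mem {K : Subgroup X} (hK : N ≤ K) (g : QuaternionGroup 2) :
    MulAut.conj g ∈ K.map (kap N e) := by
  refine ⟨(e.symm g : N), hK (e.symm g).2, ?_⟩
  ext t
  rw [kap_coe, e.apply_symm_apply, MulAut.conj_apply]

theorem mkpow (α : MulAut (QuaternionGroup 2)) (x y : QuaternionGroup 2)
    (hα : ∀ t, α t = cand x y t) (k : ℕ) (t : QuaternionGroup 2) : (α ^ k) t = (cand x y)^[k] t := by
  induction k generalizing t with
  | zero => rfl
  | succ k ih =>
    rw [pow_succ, Function.iterate_succ_apply, MulAut.mul_apply, ih, hα]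

theorem exists_aut (x y : QuaternionGroup 2) (h : good x y = true) :
    ∃ α : MulAut (QuaternionGroup 2), ∀ t, α t = cand x y t :=
  ⟨MulEquiv.ofBijective
      ({ toFun := cand x y, map_one' := cand_one x y, map_mul' := cand_mul x y h } :
        QuaternionGroup 2 →* QuaternionGroup 2)
      (Finite.injective_iff_bijective.1 (fun g g' => cand_inj x y h g g')), fun _ => rfl⟩

theorem top_of_24 {T : Subgroup (MulAut (QuaternionGroup 2))} (hI : ∀ g, MulAut.conj g ∈ T)
    {α β : MulAut (QuaternionGroup 2)} (hα : ∀ t, α t = cand (a 1) (xa 1) t)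
    (hβ : ∀ t, β t = cand (xa 0) (xa 1) t) (hαT : α ∈ T) (hβT : β ∈ T) : T = ⊤ := by
  rw [eq_top_iff]
  intro γ _
  obtain ⟨g, k, l, h⟩ := all_fact _ _ (good_map γ)
  have h1 : γ = MulAut.conj g * (α ^ k.val * β ^ l.val) := by
    ext t
    rw [eq_cand γ, h, MulAut.mul_apply, MulAut.conj_apply, MulAut.mul_apply, mkpow α _ _ hα,
      mkpow β _ _ hβ]
  rw [h1]
  exact T.mul_mem (hI g) (T.mul_mem (T.pow_mem hαT _) (T.pow_mem hβT _))

variable [Finite X]

/-- the two parts of a cyclic group -/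
theorem cyc_parts {C : Subgroup X} (hC : IsCyclic C) :
    ∃ u' ∈ C, ∃ u'' ∈ C, ∃ m s : ℕ, Odd m ∧ u' ^ m = 1 ∧ u'' ^ 2 ^ s = 1 ∧ Nat.card C = 2 ^ s * m ∧
      orderOf u'' = 2 ^ s ∧ ∀ K : Subgroup X, u' ∈ K → u'' ∈ K → C ≤ K := by
  obtain ⟨⟨c, hc⟩, hg⟩ := hC.exists_generator
  obtain ⟨s, m, hm, hcard⟩ := Nat.exists_eq_two_pow_mul_odd (n := Nat.card C) Nat.card_pos.ne'
  have hoc : orderOf c = Nat.card C := by
    rw [← orderOf_eq_card_of_forall_mem_zpowers hg]
    exact (Subgroup.orderOf_mk c hc).symm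
  have hco : Nat.Coprime (2 ^ s) m := Nat.Coprime.pow_left _ (Nat.coprime_two_left.2 hm)
  refine ⟨c ^ 2 ^ s, C.pow_mem hc _, c ^ m, C.pow_mem hc _, m, s, hm, ?_, ?_, hcard, ?_,
    fun K h1 h2 => ?_⟩
  · rw [← pow_mul, ← hcard, ← hoc, pow_orderOf_eq_one]
  · rw [← pow_mul, mul_comm, ← hcard, ← hoc, pow_orderOf_eq_one]
  · rw [orderOf_pow' _ hm.pos.ne', hoc, hcard, Nat.gcd_eq_right (Dvd.intro_left _ rfl),
      Nat.mul_div_cancel _ hm.pos]
  · have hcK : c ∈ K := by
      have h3 := Nat.gcd_eq_gcd_ab (2 ^ s) m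
      rw [hco.gcd_eq_one] at h3
      have h4 : c ^ (((1 : ℕ) : ℤ)) = c := by simp
      rw [h3, zpow_add, zpow_mul, zpow_mul, zpow_natCast, zpow_natCast] at h4
      rw [← h4]
      exact K.mul_mem (K.zpow_mem h1 _) (K.zpow_mem h2 _)
    intro x hx
    obtain ⟨i, hi⟩ := Subgroup.mem_zpowers_iff.1 (hg ⟨x, hx⟩)
    have h5 := congrArg Subtype.val hi
    simp only [SubgroupClass.coe_zpow] at h5
    rw [← h5]
    exact K.zpow_mem hcK _

/-- Case 24. -/
theorem twoGen_24 (hC : IsCyclic (kap N e).ker) (hZ : ∀ c ∈ (kap N e).ker, ∀ x : X, c * x = x * c)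
    (hR : Nat.card (kap N e).range = 24) : TwoGen X := by
  have hRt : (kap N e).range = ⊤ := by
    have hfin : Finite (MulAut (QuaternionGroup 2)) :=
      Nat.finite_of_card_ne_zero (by rw [card_mulAut]; norm_num)
    exact Subgroup.eq_top_of_card_eq _ (by rw [hR, card_mulAut])
  obtain ⟨α, hα⟩ := exists_aut _ _ good4
  obtain ⟨β, hβ⟩ := exists_aut _ _ good3
  obtain ⟨x, hx⟩ : α ∈ (kap N e).range := hRt ▸ Subgroup.mem_top α
  obtain ⟨y, hy⟩ : β ∈ (kap N e).range := hRt ▸ Subgroup.mem_top β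
  obtain ⟨mx, ax, hmx, hx'⟩ := exists_part x Nat.prime_two
  obtain ⟨my, ay, hmy, hy'⟩ := exists_part y Nat.prime_three
  obtain ⟨u', hu', u'', hu'', m, s, hm, hu'm, hu''s, hcard, -, hK⟩ := cyc_parts hC
  refine ⟨x ^ mx * u', y ^ my * u'', ?_⟩
  obtain ⟨K, hKd⟩ : ∃ K, K = closure ({x ^ mx * u', y ^ my * u''} : Set X) := ⟨_, rfl⟩
  rw [← hKd]
  have h1 : x ^ mx * u' ∈ K := hKd ▸ subset_closure (by simp)
  have h2 : y ^ my * u'' ∈ K := hKd ▸ subset_closure (by simp)
  have hxK : x ^ mx ∈ K := left_mem_of_pow K (hZ _ hu' _).symm hx' hu'm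
    (Nat.Coprime.pow_left _ (Nat.coprime_two_left.2 hm)) h1
  have hyK : y ^ my ∈ K := left_mem_of_pow K (hZ _ hu'' _).symm hy' hu''s
    (Nat.Coprime.pow _ _ (by norm_num)) h2
  have hu'K : u' ∈ K := by
    have := K.mul_mem (K.inv_mem hxK) h1
    rwa [inv_mul_cancel_left] at this
  have hu''K : u'' ∈ K := by
    have := K.mul_mem (K.inv_mem hyK) h2
    rwa [inv_mul_cancel_left] at this
  have hCK := hK K hu'K hu''K
  have hα2 : α ^ 2 = MulAut.conj (a 1) := by
    ext t
    rw [pow_two, MulAut.mul_apply, hα, hα, MulAut.conj_apply, sq4]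
  have hα4 : α ^ 4 = 1 := by
    have : α ^ 4 = α ^ 2 * α ^ 2 := by rw [← pow_add]
    rw [this, hα2, ← map_mul]
    have h3 : (a 1 : QuaternionGroup 2) * a 1 = a 2 := by decide
    rw [h3]
    ext t
    rw [MulAut.conj_apply, MulAut.one_apply]
    revert t
    decide
  have hβ3 : β ^ 3 = 1 := by
    ext t
    rw [pow_succ, pow_two, MulAut.mul_apply, MulAut.mul_apply, hβ, hβ, hβ, cube3, MulAut.one_apply]
  -- `α, β ∈ K.map`
  have hαK : α ∈ K.map (kap N e) := by
    refine mem_of_pow_mem (m := mx) hα4 ?_ ⟨x ^ mx, hxK, by rw [map_pow, hx]⟩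
    have : (4 : ℕ) = 2 ^ 2 := by norm_num
    rw [this]
    exact Nat.Coprime.pow_right _ ((Nat.Prime.coprime_iff_not_dvd Nat.prime_two).2 hmx).symm
  have hβK : β ∈ K.map (kap N e) := by
    refine mem_of_pow_mem (m := my) hβ3 ?_ ⟨y ^ my, hyK, by rw [map_pow, hy]⟩
    exact ((Nat.Prime.coprime_iff_not_dvd Nat.prime_three).2 hmy).symm
  -- `e.symm (a 1) ∈ K`
  have hi : ((e.symm (a 1) : N) : X) ∈ K := by
    obtain ⟨x', hx'K, hx'α⟩ := hαK
    have h3 : (x' ^ 2)⁻¹ * ((e.symm (a 1) : N) : X) ∈ (kap N e).ker := by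
      rw [MonoidHom.mem_ker, map_mul, map_inv, map_pow, hx'α, hα2]
      have h4 : kap N e ((e.symm (a 1) : N) : X) = MulAut.conj (a 1) := by
        ext t
        rw [kap_coe, e.apply_symm_apply, MulAut.conj_apply]
      rw [h4, inv_mul_cancel]
    have h5 := K.mul_mem (K.pow_mem hx'K 2) (hCK h3)
    rwa [mul_inv_cancel_left] at h5
  have hNK : N ≤ K := by
    obtain ⟨y', hy'K, hy'β⟩ := hβK
    refine N_le (e := e) (s := a 1) (t := β (a 1)) (by decide) ?_ ?_ ?_ hi ?_
    · rw [hβ]; decide +kernel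
    · rw [hβ]; decide +kernel
    · rw [hβ]; decide +kernel
    · rw [← hy'β, kap_apply]
      exact K.mul_mem (K.mul_mem hy'K hi) (K.inv_mem hy'K)
  apply eq_top_of hCK
  rw [top_of_24 (fun g => inner_mem hNK g) hα hβ hαK hβK]
  exact le_top

omit [Finite X] in
/-- The image contains the inner automorphisms, four of them. -/
theorem four_dvd {K : Subgroup X} (hK : N ≤ K) : 4 ∣ Nat.card (K.map (kap N e)) := by
  have h1 : (MulAut.conj : QuaternionGroup 2 →* MulAut (QuaternionGroup 2)).range ≤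
      K.map (kap N e) := by
    rintro _ ⟨g, rfl⟩
    exact inner_mem hK g
  have h2 : Nat.card (MulAut.conj : QuaternionGroup 2 →* MulAut (QuaternionGroup 2)).range = 4 := by
    have h3 := Subgroup.card_mul_index (MulAut.conj : QuaternionGroup 2 →* MulAut (QuaternionGroup 2)).ker
    rw [Subgroup.index_ker, Nat.card_eq_fintype_card (α := QuaternionGroup 2),
      QuaternionGroup.card] at h3
    have h4 : Nat.card (MulAut.conj : QuaternionGroup 2 →* MulAut (QuaternionGroup 2)).ker = 2 := by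
      have h5 : ((MulAut.conj : QuaternionGroup 2 →* MulAut (QuaternionGroup 2)).ker :
          Set (QuaternionGroup 2)) = {1, a 2} := by
        ext g
        simp only [SetLike.mem_coe, MonoidHom.mem_ker, Set.mem_insert_iff, Set.mem_singleton_iff]
        constructor
        · intro h
          have h6 : ∀ t : QuaternionGroup 2, g * t * g⁻¹ = t := fun t => by
            rw [← MulAut.conj_apply, h, MulAut.one_apply]
          revert h6
          revert g
          decide
        · intro h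
          ext t
          rw [MulAut.conj_apply, MulAut.one_apply]
          rcases h with rfl | rfl
          · simp
          · revert t; decide
      have h6 : Nat.card ((MulAut.conj : QuaternionGroup 2 →* MulAut (QuaternionGroup 2)).ker :
          Set (QuaternionGroup 2)) = 2 := by
        rw [h5, Nat.card_coe_set_eq, Set.ncard_pair]
        decide
      exact h6
    rw [h4] at h3
    omega
  rw [← h2]
  exact Subgroup.card_dvd_of_le h1

/-- Case 12. -/
theorem twoGen_12 (hC : IsCyclic (kap N e).ker) (hZ : ∀ c ∈ (kap N e).ker, ∀ x : X, c * x = x * c)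
    (hR : Nat.card (kap N e).range = 12) : TwoGen X := by
  have hfin : Finite (MulAut (QuaternionGroup 2)) :=
    Nat.finite_of_card_ne_zero (by rw [card_mulAut]; norm_num)
  have hp3 : Fact (Nat.Prime 3) := ⟨Nat.prime_three⟩
  obtain ⟨b, hb⟩ := exists_prime_orderOf_dvd_card' (G := (kap N e).range) 3
    (by rw [hR]; norm_num)
  obtain ⟨β, hβd⟩ : ∃ β : MulAut (QuaternionGroup 2), β = b := ⟨_, rfl⟩
  have hβo : orderOf β = 3 := by rw [hβd, Subgroup.orderOf_coe, hb]
  obtain ⟨y, hy⟩ : β ∈ (kap N e).range := hβd ▸ b.2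
  have hβ3 : β ^ 3 = 1 := by rw [← hβo, pow_orderOf_eq_one]
  obtain ⟨my, ay, hmy, hy'⟩ := exists_part y Nat.prime_three
  obtain ⟨u', hu', u'', hu'', m, s, hm, hu'm, hu''s, hcard, -, hK⟩ := cyc_parts hC
  obtain ⟨n, hn⟩ : ∃ n : N, n = e.symm (a 1) := ⟨_, rfl⟩
  have hn4 : ((n : X)) ^ 2 ^ 2 = 1 := by
    have h1 : n ^ 4 = 1 := by
      rw [hn, ← map_pow]
      have : (a 1 : QuaternionGroup 2) ^ 4 = 1 := by decide
      rw [this, map_one]
    have := congrArg Subtype.val h1
    simpa using this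
  refine ⟨n * u', y ^ my * u'', ?_⟩
  obtain ⟨K, hKd⟩ : ∃ K, K = closure ({(n : X) * u', y ^ my * u''} : Set X) := ⟨_, rfl⟩
  rw [← hKd]
  have h1 : (n : X) * u' ∈ K := hKd ▸ subset_closure (by simp)
  have h2 : y ^ my * u'' ∈ K := hKd ▸ subset_closure (by simp)
  have hnK : (n : X) ∈ K := left_mem_of_pow K (hZ _ hu' _).symm hn4 hu'm
    (Nat.Coprime.pow_left _ (Nat.coprime_two_left.2 hm)) h1
  have hyK : y ^ my ∈ K := left_mem_of_pow K (hZ _ hu'' _).symm hy' hu''s
    (Nat.Coprime.pow _ _ (by norm_num)) h2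
  have hu'K : u' ∈ K := by
    have := K.mul_mem (K.inv_mem hnK) h1
    rwa [inv_mul_cancel_left] at this
  have hu''K : u'' ∈ K := by
    have := K.mul_mem (K.inv_mem hyK) h2
    rwa [inv_mul_cancel_left] at this
  have hCK := hK K hu'K hu''K
  have hβK : β ∈ K.map (kap N e) := by
    refine mem_of_pow_mem (m := my) hβ3 ?_ ⟨y ^ my, hyK, by rw [map_pow, hy]⟩
    exact ((Nat.Prime.coprime_iff_not_dvd Nat.prime_three).2 hmy).symm
  have hNK : N ≤ K := by
    obtain ⟨y', hy'K, hy'β⟩ := hβK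
    have hsq : β (a 1) * β (a 1) = a 2 := by
      rw [← map_mul]
      have : (a 1 : QuaternionGroup 2) * a 1 = a 2 := by decide
      rw [this, map_a_two]
    have hne : ¬ (β (a 1) = a 1 ∨ β (a 1) = a 2 * a 1) := by
      intro h
      have h3 := order3_fact _ _ (good_map β) (fun g => by
        rw [← eq_cand β g, ← eq_cand β (β g), ← eq_cand β (β (β g))]
        have := DFunLike.congr_fun hβ3 g
        rw [pow_succ, pow_two] at this
        exact this) h
      have h4 : β = 1 := by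
        ext t
        rw [eq_cand β, h3, MulAut.one_apply]
      rw [h4, orderOf_one] at hβo
      omega
    rw [not_or] at hne
    refine N_le (e := e) (s := a 1) (t := β (a 1)) (by decide) hsq hne.1 hne.2 (hn ▸ hnK) ?_
    rw [← hy'β, kap_apply]
    exact K.mul_mem (K.mul_mem hy'K (hn ▸ hnK)) (K.inv_mem hy'K)
  apply eq_top_of hCK
  have h4 := four_dvd (e := e) hNK
  have h3 : 3 ∣ Nat.card (K.map (kap N e)) := by
    have := Subgroup.orderOf_dvd_natCard _ hβK
    rwa [hβo] at this
  have h12 : 12 ∣ Nat.card (K.map (kap N e)) := by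
    have : (12 : ℕ) = 4 * 3 := by norm_num
    rw [this]
    exact Nat.Coprime.mul_dvd_of_dvd_of_dvd (by norm_num) h4 h3
  have hle : K.map (kap N e) ≤ (kap N e).range := Subgroup.map_le_range _ _
  have heq : K.map (kap N e) = (kap N e).range := by
    apply Subgroup.eq_of_le_of_card_ge hle
    rw [hR]
    exact Nat.le_of_dvd Nat.card_pos h12
  exact heq.ge

/-- Case 8. -/
theorem twoGen_8 (hC : IsCyclic (kap N e).ker) (hZ : ∀ c ∈ (kap N e).ker, ∀ x : X, c * x = x * c)
    (hR : Nat.card (kap N e).range = 8) (h4 : ¬ 4 ∣ Nat.card (kap N e).ker) : TwoGen X := by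
  have hfin : Finite (MulAut (QuaternionGroup 2)) :=
    Nat.finite_of_card_ne_zero (by rw [card_mulAut]; norm_num)
  -- an element outside the inner automorphisms
  obtain ⟨α, ⟨x, hx⟩, hαI⟩ : ∃ α ∈ (kap N e).range, ¬ ∃ g, α = MulAut.conj g := by
    by_contra hcon
    push Not at hcon
    have h1 : (kap N e).range ≤ N.map (kap N e) := by
      intro α hα
      obtain ⟨g, rfl⟩ := hcon α hα
      exact inner_mem le_rfl g
    have h2 : Nat.card (N.map (kap N e)) ∣ 4 := by
      have h3 : N.map (kap N e) ≤ (MulAut.conj : QuaternionGroup 2 →* MulAut (QuaternionGroup 2)).range := by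
        rintro _ ⟨n, hn, rfl⟩
        refine ⟨e ⟨n, hn⟩, ?_⟩
        ext t
        rw [MulAut.conj_apply]
        exact (kap_coe N e ⟨n, hn⟩ t).symm
      refine (Subgroup.card_dvd_of_le h3).trans ?_
      have h5 := Subgroup.card_mul_index (MulAut.conj : QuaternionGroup 2 →* MulAut (QuaternionGroup 2)).ker
      rw [Subgroup.index_ker, Nat.card_eq_fintype_card (α := QuaternionGroup 2),
        QuaternionGroup.card] at h5
      have h6 : 2 ∣ Nat.card (MulAut.conj : QuaternionGroup 2 →* MulAut (QuaternionGroup 2)).ker := by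
        have h7 : (a 2 : QuaternionGroup 2) ∈
            (MulAut.conj : QuaternionGroup 2 →* MulAut (QuaternionGroup 2)).ker := by
          rw [MonoidHom.mem_ker]
          ext t
          rw [MulAut.conj_apply, MulAut.one_apply]
          revert t; decide
        have h8 : orderOf (a 2 : QuaternionGroup 2) = 2 :=
          orderOf_eq_prime (by decide) (by decide)
        have h9 := Subgroup.orderOf_dvd_natCard _ h7
        rwa [h8] at h9
      obtain ⟨w, hw⟩ := h6
      rw [hw, mul_assoc] at h5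
      refine ⟨w, ?_⟩
      rw [mul_comm] at h5
      have : Nat.card (MulAut.conj : QuaternionGroup 2 →* MulAut (QuaternionGroup 2)).range * w = 4 := by
        nlinarith
      exact this.symm
    have h3 := Nat.le_of_dvd (by norm_num) ((Subgroup.card_dvd_of_le h1).trans h2)
    omega
  have hα8 : α ^ 8 = 1 := by
    have h1 := Subgroup.orderOf_dvd_natCard (kap N e).range ⟨x, hx⟩
    rw [hR] at h1
    exact orderOf_dvd_iff_pow_eq_one.1 h1
  obtain ⟨mx, ax, hmx, hx'⟩ := exists_part x Nat.prime_two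
  obtain ⟨u', hu', u'', hu'', m, s, hm, hu'm, hu''s, hcard, ho'', hK⟩ := cyc_parts hC
  -- `u''` has order at most two
  have hz : ((e.symm (a 2) : N) : X) ∈ (kap N e).ker := by
    rw [MonoidHom.mem_ker]
    ext t
    rw [kap_coe, e.apply_symm_apply, MulAut.one_apply]
    revert t; decide
  have hs1 : s = 1 := by
    have hs2 : s ≤ 1 := by
      by_contra hcon
      apply h4
      rw [hcard]
      exact Dvd.dvd.mul_right (pow_dvd_pow 2 (show 2 ≤ s by omega)) _
    have hs0 : s ≠ 0 := by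
      rintro rfl
      have h1 := Subgroup.orderOf_dvd_natCard (kap N e).ker hz
      have h2 : orderOf ((e.symm (a 2) : N) : X) = 2 := by
        rw [Subgroup.orderOf_coe, MulEquiv.orderOf_eq]
        exact orderOf_eq_prime (by decide) (by decide)
      rw [h2, hcard, pow_zero, one_mul] at h1
      exact (Nat.not_even_iff_odd.2 hm) (even_iff_two_dvd.2 h1)
    omega
  have hu''z : u'' = ((e.symm (a 2) : N) : X) := by
    -- the involution of a cyclic group is unique
    have h1 : orderOf (⟨u'', hu''⟩ : (kap N e).ker) = 2 := by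
      rw [Subgroup.orderOf_mk, ho'', hs1, pow_one]
    have h2 : orderOf (⟨_, hz⟩ : (kap N e).ker) = 2 := by
      rw [Subgroup.orderOf_mk, Subgroup.orderOf_coe, MulEquiv.orderOf_eq]
      exact orderOf_eq_prime (by decide) (by decide)
    classical
    have : Fintype (kap N e).ker := Fintype.ofFinite _
    have h5 := IsCyclic.card_pow_eq_one_le (α := (kap N e).ker) (n := 2) (by norm_num)
    by_contra hne
    have h6 : ({1, ⟨u'', hu''⟩, ⟨_, hz⟩} : Finset (kap N e).ker) ⊆
        Finset.univ.filter (fun a => a ^ 2 = 1) := by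
      intro w hw
      rw [Finset.mem_filter]
      refine ⟨Finset.mem_univ _, ?_⟩
      simp only [Finset.mem_insert, Finset.mem_singleton] at hw
      rcases hw with rfl | rfl | rfl
      · simp
      · exact orderOf_dvd_iff_pow_eq_one.1 (dvd_of_eq h1)
      · exact orderOf_dvd_iff_pow_eq_one.1 (dvd_of_eq h2)
    have h7 := (Finset.card_le_card h6).trans h5
    rw [Finset.card_eq_three.2 ⟨_, _, _, ?_, ?_, ?_, rfl⟩] at h7
    · omega
    · intro h; rw [← h, orderOf_one] at h1; omega
    · intro h; rw [← h, orderOf_one] at h2; omega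
    · intro h; exact hne (congrArg Subtype.val h)
  -- the element moved
  obtain ⟨s0, hs0, ht1, ht2⟩ : ∃ s0 : QuaternionGroup 2, s0 * s0 = a 2 ∧ α s0 ≠ s0 ∧ α s0 ≠ a 2 * s0 := by
    by_contra hcon
    push Not at hcon
    apply hαI
    have h1 : α (a 1) = a 1 ∨ α (a 1) = a 2 * a 1 := by
      by_cases h : α (a 1) = a 1
      · exact Or.inl h
      · exact Or.inr (hcon _ (by decide) h)
    have h2 : α (xa 0) = xa 0 ∨ α (xa 0) = a 2 * xa 0 := by
      by_cases h : α (xa 0) = xa 0
      · exact Or.inl h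
      · exact Or.inr (hcon _ (by decide) h)
    obtain ⟨g, hg⟩ := inner_fact _ _ (good_map α) h1 h2
    refine ⟨g, ?_⟩
    ext t
    rw [eq_cand α, hg, MulAut.conj_apply]
  obtain ⟨n, hn⟩ : ∃ n : N, n = e.symm s0 := ⟨_, rfl⟩
  refine ⟨x ^ mx * u', n, ?_⟩
  obtain ⟨K, hKd⟩ : ∃ K, K = closure ({x ^ mx * u', (n : X)} : Set X) := ⟨_, rfl⟩
  rw [← hKd]
  have h1 : x ^ mx * u' ∈ K := hKd ▸ subset_closure (by simp)
  have hnK : (n : X) ∈ K := hKd ▸ subset_closure (by simp)
  have hxK : x ^ mx ∈ K := left_mem_of_pow K (hZ _ hu' _).symm hx' hu'm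
    (Nat.Coprime.pow_left _ (Nat.coprime_two_left.2 hm)) h1
  have hu'K : u' ∈ K := by
    have := K.mul_mem (K.inv_mem hxK) h1
    rwa [inv_mul_cancel_left] at this
  have hαK : α ∈ K.map (kap N e) := by
    refine mem_of_pow_mem (m := mx) hα8 ?_ ⟨x ^ mx, hxK, by rw [map_pow, hx]⟩
    have : (8 : ℕ) = 2 ^ 3 := by norm_num
    rw [this]
    exact Nat.Coprime.pow_right _ ((Nat.Prime.coprime_iff_not_dvd Nat.prime_two).2 hmx).symm
  have hNK : N ≤ K := by
    obtain ⟨y', hy'K, hy'β⟩ := hαK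
    have hsq : α s0 * α s0 = a 2 := by
      rw [← map_mul, hs0, map_a_two]
    refine N_le (e := e) (s := s0) (t := α s0) hs0 hsq ht1 ht2 (hn ▸ hnK) ?_
    rw [← hy'β, kap_apply]
    exact K.mul_mem (K.mul_mem hy'K (hn ▸ hnK)) (K.inv_mem hy'K)
  have hCK : (kap N e).ker ≤ K := hK K hu'K (by rw [hu''z]; exact hNK (e.symm (a 2)).2)
  apply eq_top_of hCK
  -- orders
  have h5 := four_dvd (e := e) hNK
  have hle : K.map (kap N e) ≤ (kap N e).range := Subgroup.map_le_range _ _
  have h6 := Subgroup.card_dvd_of_le hle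
  rw [hR] at h6
  have h7 : Nat.card (K.map (kap N e)) ≠ 4 := by
    intro h8
    -- then `K.map` is the group of inner automorphisms
    have h9 : N.map (kap N e) = K.map (kap N e) := by
      apply Subgroup.eq_of_le_of_card_ge (Subgroup.map_mono hNK)
      rw [h8]
      exact Nat.le_of_dvd Nat.card_pos (four_dvd (e := e) le_rfl)
    rw [← h9] at hαK
    obtain ⟨n', hn', hn'α⟩ := hαK
    apply hαI
    refine ⟨e ⟨n', hn'⟩, ?_⟩
    ext t
    rw [← hn'α, MulAut.conj_apply]
    exact kap_coe N e ⟨n', hn'⟩ t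
  have h8 : Nat.card (K.map (kap N e)) = 8 := by
    obtain ⟨w, hw⟩ := h5
    have := Nat.le_of_dvd (by norm_num) h6
    have h9 : 0 < Nat.card (K.map (kap N e)) := Nat.card_pos
    omega
  have heq : K.map (kap N e) = (kap N e).range := by
    apply Subgroup.eq_of_le_of_card_ge hle
    rw [hR, h8]
  exact heq.ge

end main

end Cfsg.Agent.H479.GenQuat
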