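/-
helper479 (TEAM GEN, piece M of S3565): tools for the affine rows in dimension two, and the quaternion row.
-/
import Cfsg.Agent.H891.Gen.Defs
import Cfsg.Agent.H479.GenQuat

set_option autoImplicit false

namespace Cfsg.Agent.H479.GenAff

open Cfsg.Agent.H440.TwoGen Cfsg.Agent.H891.Gen Subgroup

universe u

variable {V : Type u} [AddCommGroup V] {p : ℕ} {H : Subgroup (Equiv.Perm V)}

/-- elements as additive maps -/
def ad (L : Lin p H) (h : H) : V →+ V := AddMonoidHom.mk' (h : Equiv.Perm V) (L.add h h.2)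

@[simp] theorem ad_apply (L : Lin p H) (h : H) (v : V) : ad L h v = (h : Equiv.Perm V) v := rfl

theorem map_sub' (L : Lin p H) (h : H) (v w : V) :
    (h : Equiv.Perm V) (v - w) = (h : Equiv.Perm V) v - (h : Equiv.Perm V) w := map_sub (ad L h) v w

/-- A normal subgroup of order prime to `p` without fixed vectors gives good pairs. -/
theorem affGood_of_coprime (L : Lin p H) (hT : TwoGen ↥H) (N : Subgroup ↥H) [hNn : N.Normal]
    (hN : ¬ p ∣ Nat.card N) (hfix : ∀ v : V, (∀ n ∈ N, ((n : H) : Equiv.Perm V) v = v) → v = 0) :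
    AffGood H := by
  classical
  have hfinV := L.fin
  have hfinH : Finite H := inferInstance
  obtain ⟨a, b, hab⟩ := hT
  refine ⟨a, b, ?_, ?_⟩
  · have h1 := congrArg (Subgroup.map H.subtype) hab
    rw [MonoidHom.map_closure, Set.image_pair, ← MonoidHom.range_eq_map, Subgroup.range_subtype] at h1
    exact h1
  -- every derivation is inner
  have key : ∀ z : Equiv.Perm V → V, (∀ g ∈ H, ∀ h ∈ H, z (g * h) = z g + g (z h)) →
      ∃ x : V, ∀ h : H, z h = x - (h : Equiv.Perm V) x := by
    intro z hz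
    have : Fintype N := Fintype.ofFinite N
    obtain ⟨s, hs⟩ : ∃ s, s = ∑ n : N, z ((n : H) : Equiv.Perm V) := ⟨_, rfl⟩
    have h1 : ∀ g : N, (((g : N) : H) : Equiv.Perm V) s =
        s - Nat.card N • z ((g : H) : Equiv.Perm V) := by
      intro g
      have h2 : (((g : N) : H) : Equiv.Perm V) s = ∑ n : N, (((g : N) : H) : Equiv.Perm V)
          (z ((n : H) : Equiv.Perm V)) := by
        rw [hs]
        exact map_sum (ad L g) _ _
      have h3 : ∀ n : N, (((g : N) : H) : Equiv.Perm V) (z ((n : H) : Equiv.Perm V)) =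
          z (((g * n : N) : H) : Equiv.Perm V) - z ((g : H) : Equiv.Perm V) := by
        intro n
        have h4 := hz ((g : H) : Equiv.Perm V) (g : H).2 ((n : H) : Equiv.Perm V) (n : H).2
        have h5 : (((g * n : N) : H) : Equiv.Perm V) =
            ((g : H) : Equiv.Perm V) * ((n : H) : Equiv.Perm V) := rfl
        rw [h5, h4, add_sub_cancel_left]
      rw [h2, Finset.sum_congr rfl (fun n _ => h3 n), Finset.sum_sub_distrib, Finset.sum_const,
        Finset.card_univ, ← Nat.card_eq_fintype_card]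
      congr 1
      rw [hs]
      exact Fintype.sum_equiv (Equiv.mulLeft g) _ _ (fun n => rfl)
    -- invert `|N|`
    have hco : (Nat.card N).Coprime p := ((Nat.Prime.coprime_iff_not_dvd L.prime).2 hN).symm
    have h6 := Nat.gcd_eq_gcd_ab (Nat.card N) p
    rw [hco.gcd_eq_one] at h6
    obtain ⟨k, hk⟩ : ∃ k : ℤ, k = Nat.gcdA (Nat.card N) p := ⟨_, rfl⟩
    have hkN : ∀ v : V, k • (Nat.card N • v) = v := by
      intro v
      have h7 : ((1 : ℕ) : ℤ) • v = v := by simp
      rw [h6, add_smul, mul_smul, mul_comm, mul_smul] at h7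
      have h8 : ((p : ℕ) : ℤ) • v = 0 := by rw [natCast_zsmul, L.tors]
      rw [h8, smul_zero, add_zero, natCast_zsmul, ← hk, smul_comm] at h7
      exact h7
    have hx : ∀ g : N, z ((g : H) : Equiv.Perm V) = k • s - ((g : H) : Equiv.Perm V) (k • s) := by
      intro g
      have h7 := h1 g
      have h8 : Nat.card N • z ((g : H) : Equiv.Perm V) = s - (((g : N) : H) : Equiv.Perm V) s := by
        rw [h7]; abel
      have h9 := congrArg (fun v => k • v) h8
      simp only [hkN, smul_sub] at h9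
      rw [h9]
      congr 1
      exact (map_zsmul (ad L (g : H)) k s).symm
    refine ⟨k • s, fun h => ?_⟩
    obtain ⟨x, hxd⟩ : ∃ x, x = k • s := ⟨_, rfl⟩
    rw [← hxd] at hx ⊢
    have h10 : z h - x + (h : Equiv.Perm V) x = 0 := by
      apply hfix
      intro n' hn'
      -- `n' = h n h⁻¹`
      obtain ⟨n, hn⟩ : ∃ n : N, n' = h * n * h⁻¹ :=
        ⟨⟨h⁻¹ * n' * h, by simpa using hNn.conj_mem n' hn' h⁻¹⟩, by group⟩
      have h11 : n' * h = h * n := by rw [hn]; group
      have h12 : (n' : Equiv.Perm V) * (h : Equiv.Perm V) = (h : Equiv.Perm V) * ((n : H) : Equiv.Perm V) :=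
        congrArg Subtype.val h11
      have h13 := hz (h : Equiv.Perm V) h.2 ((n : H) : Equiv.Perm V) (n : H).2
      have h14 := hz (n' : Equiv.Perm V) n'.2 (h : Equiv.Perm V) h.2
      rw [h12, h13] at h14
      have h15 := hx n
      have h16 := hx ⟨n', hn'⟩
      simp only at h16
      rw [h15, h16, map_sub' L] at h14
      have h17 : (h : Equiv.Perm V) (((n : H) : Equiv.Perm V) x) =
          (n' : Equiv.Perm V) ((h : Equiv.Perm V) x) := (DFunLike.congr_fun h12 x).symm
      rw [h17] at h14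
      have h18 : (n' : Equiv.Perm V) (z h - x + (h : Equiv.Perm V) x) =
          (n' : Equiv.Perm V) (z h) - (n' : Equiv.Perm V) x +
            (n' : Equiv.Perm V) ((h : Equiv.Perm V) x) := by
        have h19 := map_add (ad L n') (z h - x) ((h : Equiv.Perm V) x)
        rw [map_sub (ad L n')] at h19
        exact h19
      rw [h18]
      have h20 : (n' : Equiv.Perm V) (z h) = z h + ((h : Equiv.Perm V) x -
          (n' : Equiv.Perm V) ((h : Equiv.Perm V) x)) - (x - (n' : Equiv.Perm V) x) := by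
        rw [h14]; abel
      rw [h20]; abel
    have h21 : z h = x - (h : Equiv.Perm V) x + (z h - x + (h : Equiv.Perm V) x) := by abel
    rw [h21, h10, add_zero]
  -- counting
  by_contra hcon
  push Not at hcon
  have hsurj : Function.Surjective (fun x : V => (x - (a : Equiv.Perm V) x, x - (b : Equiv.Perm V) x)) := by
    rintro ⟨v, w⟩
    obtain ⟨z, hz, hza, hzb⟩ := hcon v w
    obtain ⟨x, hx⟩ := key z hz
    exact ⟨x, by rw [← hza, ← hzb, hx a, hx b]⟩
  have h1 := Nat.card_le_card_of_surjective _ hsurj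
  rw [Nat.card_prod] at h1
  have h2 : 1 < Nat.card V := by
    obtain ⟨v, hv⟩ := L.ne
    have : Nontrivial V := ⟨v, 0, hv⟩
    exact Finite.one_lt_card
  nlinarith

/-! ### matrices -/

section mat

variable {F : Type*} [Field F]

/-- Matrices commuting with a non-scalar matrix commute. -/
theorem comm_of_comm {A B B' : Matrix (Fin 2) (Fin 2) F} (hA : ¬ ∃ t : F, A = t • (1 : Matrix (Fin 2) (Fin 2) F))
    (h : A * B = B * A) (h' : A * B' = B' * A) : B * B' = B' * B := by
  have e1 := fun i j => congrFun (congrFun h i) j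
  have e2 := fun i j => congrFun (congrFun h' i) j
  simp only [Matrix.mul_apply, Fin.sum_univ_two] at e1 e2
  have a1 := e1 0 0
  have a2 := e1 0 1
  have a3 := e1 1 0
  have b1 := e2 0 0
  have b2 := e2 0 1
  have b3 := e2 1 0
  by_cases hb : A 0 1 = 0
  · by_cases hc : A 1 0 = 0
    · by_cases hd : A 0 0 = A 1 1
      · exact absurd ⟨A 0 0, by
          ext i j
          fin_cases i <;> fin_cases j <;> simp [hb, hc, hd]⟩ hA
      · have hd' : A 0 0 - A 1 1 ≠ 0 := sub_ne_zero.2 hd
        rw [hb] at a2 b2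
        rw [hc] at a3 b3
        have g1 : B 0 1 = 0 := (mul_eq_zero.1 (by linear_combination a2 :
          (A 0 0 - A 1 1) * B 0 1 = 0)).resolve_left hd'
        have g2 : B 1 0 = 0 := (mul_eq_zero.1 (by linear_combination -a3 :
          (A 0 0 - A 1 1) * B 1 0 = 0)).resolve_left hd'
        have g3 : B' 0 1 = 0 := (mul_eq_zero.1 (by linear_combination b2 :
          (A 0 0 - A 1 1) * B' 0 1 = 0)).resolve_left hd'
        have g4 : B' 1 0 = 0 := (mul_eq_zero.1 (by linear_combination -b3 :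
          (A 0 0 - A 1 1) * B' 1 0 = 0)).resolve_left hd'
        ext i j
        fin_cases i <;> fin_cases j <;>
          simp [Matrix.mul_apply, Fin.sum_univ_two, g1, g2, g3, g4, mul_comm]
    · ext i j
      rw [hb] at a1 a2 b1 b2
      have g1 : B 0 1 = 0 := (mul_eq_zero.1 (by linear_combination -a1 :
        A 1 0 * B 0 1 = 0)).resolve_left hc
      have g2 : B' 0 1 = 0 := (mul_eq_zero.1 (by linear_combination -b1 :
        A 1 0 * B' 0 1 = 0)).resolve_left hc
      have g3 : A 1 0 * (B 1 0 * (B' 0 0 - B' 1 1) - B' 1 0 * (B 0 0 - B 1 1)) = 0 := by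
        linear_combination B 1 0 * b3 - B' 1 0 * a3
      have g4 := (mul_eq_zero.1 g3).resolve_left hc
      fin_cases i <;> fin_cases j <;> simp only [Matrix.mul_apply, Fin.sum_univ_two, g1, g2, Fin.zero_eta, Fin.mk_one]
      · ring
      · ring
      · linear_combination g4
      · ring
  · have g3 : A 0 1 * (B 0 1 * B' 1 0 - B' 0 1 * B 1 0) = 0 := by
      linear_combination B 0 1 * b1 - B' 0 1 * a1
    have g4 := (mul_eq_zero.1 g3).resolve_left hb
    have g5 : A 0 1 * (B 0 1 * (B' 0 0 - B' 1 1) - B' 0 1 * (B 0 0 - B 1 1)) = 0 := by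
      linear_combination B' 0 1 * a2 - B 0 1 * b2
    have g6 := (mul_eq_zero.1 g5).resolve_left hb
    have g7 : A 0 1 * (B 1 0 * (B' 0 0 - B' 1 1) - B' 1 0 * (B 0 0 - B 1 1)) = 0 := by
      linear_combination (B' 0 0 - B' 1 1) * a1 - (B 0 0 - B 1 1) * b1 + A 1 0 * g6
    have g8 := (mul_eq_zero.1 g7).resolve_left hb
    ext i j
    fin_cases i <;> fin_cases j <;> simp only [Matrix.mul_apply, Fin.sum_univ_two, Fin.zero_eta, Fin.mk_one]
    · linear_combination g4
    · linear_combination -g6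
    · linear_combination g8
    · linear_combination -g4

end mat

/-! ### dimension two -/

theorem exists_mat_aux [Fact p.Prime] [Finite V] [Module (ZMod p) V] (L : Lin p H)
    (h2 : Nat.card V = p ^ 2) :
    ∃ r : ↥H →* Matrix (Fin 2) (Fin 2) (ZMod p), Function.Injective r := by
  have hfr : Module.finrank (ZMod p) V = 2 := by
    have h3 := Module.natCard_eq_pow_finrank (K := ZMod p) (V := V)
    rw [h2, Nat.card_zmod] at h3
    exact (Nat.pow_right_injective L.prime.two_le h3).symm
  let b : Module.Basis (Fin 2) (ZMod p) V := Module.finBasisOfFinrankEq (ZMod p) V hfr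
  let g : ↥H →* Module.End (ZMod p) V :=
    { toFun := fun h => (ad L h).toZModLinearMap p
      map_one' := by ext v; simp
      map_mul' := fun x y => by ext v; simp }
  refine ⟨((LinearMap.toMatrixAlgEquiv b : _ ≃ₐ[ZMod p] _) : _ →* _).comp g, ?_⟩
  intro x y hxy
  have h3 : g x = g y := (LinearMap.toMatrixAlgEquiv b).injective hxy
  apply Subtype.ext
  ext v
  exact DFunLike.congr_fun h3 v

/-- A linear representation by `2 × 2` matrices over `ZMod p`. -/
theorem exists_mat (L : Lin p H) (h2 : Nat.card V = p ^ 2) :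
    ∃ r : ↥H →* Matrix (Fin 2) (Fin 2) (ZMod p), Function.Injective r := by
  have hp : Fact p.Prime := ⟨L.prime⟩
  have hfin := L.fin
  let hmod : Module (ZMod p) V := AddCommGroup.zmodModule L.tors
  exact exists_mat_aux L h2

/-- `p² - 1` divides the order. -/
theorem card_dvd (L : Lin p H) (h2 : Nat.card V = p ^ 2) : p ^ 2 - 1 ∣ Nat.card H := by
  have hfin := L.fin
  obtain ⟨v, hv⟩ := L.ne
  have h1 : MulAction.orbit H v = {w : V | w ≠ 0} := by
    ext w
    constructor
    · rintro ⟨h, rfl⟩ h0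
      have h3 : (h : Equiv.Perm V) 0 = 0 := map_zero (ad L h)
      exact hv ((h : Equiv.Perm V).injective (h0.trans h3.symm))
    · intro hw
      obtain ⟨h, hh, h3⟩ := L.trans v w hv hw
      exact ⟨⟨h, hh⟩, h3⟩
  have h3 : Nat.card (MulAction.orbit H v) = p ^ 2 - 1 := by
    rw [h1, ← h2, Nat.card_coe_set_eq]
    have h4 : {w : V | w ≠ 0} = ({0} : Set V)ᶜ := rfl
    rw [h4, Set.ncard_compl, Set.ncard_singleton]
  rw [← h3, Nat.card_coe_set_eq, ← MulAction.index_stabilizer]
  exact Subgroup.index_dvd_card _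

/-- A normal subgroup `≠ 1` has no fixed vectors. -/
theorem fix_zero (L : Lin p H) (N : Subgroup ↥H) [hNn : N.Normal] (hN : N ≠ ⊥) :
    ∀ v : V, (∀ n ∈ N, ((n : H) : Equiv.Perm V) v = v) → v = 0 := by
  intro v hv
  by_contra hv0
  -- then every vector is fixed
  have h3 : ∀ w : V, ∀ n ∈ N, ((n : H) : Equiv.Perm V) w = w := by
    intro w n hn
    by_cases hw : w = 0
    · rw [hw]; exact map_zero (ad L n)
    obtain ⟨h, hh, rfl⟩ := L.trans v w hv0 hw
    obtain ⟨g, hg⟩ : ∃ g : H, g = ⟨h, hh⟩ := ⟨_, rfl⟩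
    have h4 := hv (g⁻¹ * n * g) (by simpa using hNn.conj_mem n hn g⁻¹)
    have h5 : n * g = g * (g⁻¹ * n * g) := by group
    have h6 : (n : Equiv.Perm V) ((g : Equiv.Perm V) v) =
        (g : Equiv.Perm V) (((g⁻¹ * n * g : H) : Equiv.Perm V) v) :=
      DFunLike.congr_fun (congrArg Subtype.val h5) v
    rw [h4, hg] at h6
    exact h6
  apply hN
  rw [Subgroup.eq_bot_iff_forall]
  intro n hn
  apply Subtype.ext
  ext w
  exact h3 w n hn

/-- The centralizer of a non-abelian normal subgroup: central, cyclic, of order dividing `p - 1`. -/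
theorem central (L : Lin p H) (h2 : Nat.card V = p ^ 2) (N : Subgroup ↥H)
    (hN : ∃ n ∈ N, ∃ n' ∈ N, n * n' ≠ n' * n) (C : Subgroup ↥H)
    (hC : ∀ c ∈ C, ∀ n ∈ N, c * n = n * c) :
    (∀ c ∈ C, ∀ x : H, c * x = x * c) ∧ IsCyclic C ∧ Nat.card C ∣ p - 1 := by
  have hp : Fact p.Prime := ⟨L.prime⟩
  have hfinV := L.fin
  obtain ⟨r, hr⟩ := exists_mat L h2
  obtain ⟨n, hn, n', hn', hnn⟩ := hN
  have hsc : ∀ c ∈ C, ∃ t : ZMod p, r c = t • (1 : Matrix (Fin 2) (Fin 2) (ZMod p)) := by
    intro c hc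
    by_contra hcon
    apply hnn
    apply hr
    rw [map_mul, map_mul]
    exact comm_of_comm hcon (by rw [← map_mul, hC c hc n hn, map_mul])
      (by rw [← map_mul, hC c hc n' hn', map_mul])
  refine ⟨fun c hc x => ?_, ?_⟩
  · apply hr
    obtain ⟨t, ht⟩ := hsc c hc
    rw [map_mul, map_mul, ht, Matrix.smul_mul, Matrix.mul_smul, Matrix.one_mul, Matrix.mul_one]
  · have hent : ∀ c ∈ C, r c = (r c 0 0) • (1 : Matrix (Fin 2) (Fin 2) (ZMod p)) := by
      intro c hc
      obtain ⟨t, ht⟩ := hsc c hc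
      rw [ht]
      simp
    let f : C →* ZMod p :=
      { toFun := fun c => r c 0 0
        map_one' := by simp
        map_mul' := fun c d => by
          rw [Subgroup.coe_mul, map_mul, hent c c.2, hent d d.2]
          simp [mul_comm] }
    have hf : Function.Injective f := by
      intro c d hcd
      apply Subtype.ext
      apply hr
      rw [hent c c.2, hent d d.2]
      congr 1
    refine ⟨isCyclic_of_injective_ringHom f hf, ?_⟩
    have h3 : Function.Injective f.toHomUnits := by
      intro c d hcd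
      apply hf
      exact congrArg Units.val hcd
    have h4 := Subgroup.card_dvd_of_injective f.toHomUnits h3
    rwa [Nat.card_units, Nat.card_zmod] at h4

theorem num5 : ∀ C ∈ Finset.range 23, ∀ R ∈ ({1, 2, 3, 4, 6, 8, 12, 24} : Finset ℕ),
    5 ^ 2 - 1 ∣ C * R → C ∣ 5 - 1 → (R = 24 ∨ R = 12 ∨ (R = 8 ∧ ¬ 4 ∣ C)) ∨ R = 6 := by decide

theorem num7 : ∀ C ∈ Finset.range 23, ∀ R ∈ ({1, 2, 3, 4, 6, 8, 12, 24} : Finset ℕ),
    7 ^ 2 - 1 ∣ C * R → C ∣ 7 - 1 → R = 24 ∨ R = 12 ∨ (R = 8 ∧ ¬ 4 ∣ C) := by decide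

theorem num11 : ∀ C ∈ Finset.range 23, ∀ R ∈ ({1, 2, 3, 4, 6, 8, 12, 24} : Finset ℕ),
    11 ^ 2 - 1 ∣ C * R → C ∣ 11 - 1 → R = 24 ∨ R = 12 ∨ (R = 8 ∧ ¬ 4 ∣ C) := by decide

theorem num23 : ∀ C ∈ Finset.range 23, ∀ R ∈ ({1, 2, 3, 4, 6, 8, 12, 24} : Finset ℕ),
    23 ^ 2 - 1 ∣ C * R → C ∣ 23 - 1 → R = 24 ∨ R = 12 ∨ (R = 8 ∧ ¬ 4 ∣ C) := by decide

/-- The quaternion row. -/
theorem quat (L : Lin p H) (h2 : Nat.card V = p ^ 2) (hp : p = 5 ∨ p = 7 ∨ p = 11 ∨ p = 23)
    (hN : ∃ N : Subgroup ↥H, N.Normal ∧ Nonempty (↥N ≃* QuaternionGroup 2)) : AffGood H := by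
  obtain ⟨N, hNn, ⟨e⟩⟩ := hN
  have hfinV := L.fin
  have hcardN : Nat.card N = 8 := by
    rw [Nat.card_congr e.toEquiv, Nat.card_eq_fintype_card, QuaternionGroup.card]
  have hfix := fix_zero L N (by rintro rfl; simp at hcardN)
  refine affGood_of_coprime L ?_ N ?_ hfix
  · have hker : ∀ c ∈ (GenQuat.kap N e).ker, ∀ n ∈ N, c * n = n * c := by
      intro c hc n hn
      have h3 := GenQuat.kap_apply N e c (e ⟨n, hn⟩)
      rw [MonoidHom.mem_ker.1 hc, MulAut.one_apply, e.symm_apply_apply] at h3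
      simp only at h3
      exact (eq_mul_inv_iff_mul_eq.1 h3).symm
    obtain ⟨hZ, hcy, hdv⟩ := central L h2 N ⟨e.symm (QuaternionGroup.a 1), (e.symm _).2,
      e.symm (QuaternionGroup.xa 0), (e.symm _).2, by
        intro h
        have h3 : e.symm (QuaternionGroup.a 1) * e.symm (QuaternionGroup.xa 0) =
            e.symm (QuaternionGroup.xa 0) * e.symm (QuaternionGroup.a 1) := Subtype.ext h
        rw [← map_mul, ← map_mul] at h3
        exact absurd (e.symm.injective h3) (by decide)⟩ _ hker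
    have h3 := card_dvd L h2
    have h4 := Subgroup.card_mul_index (GenQuat.kap N e).ker
    rw [Subgroup.index_ker] at h4
    have h24 : Nat.card (GenQuat.kap N e).range ∣ 24 := by
      rw [← Cfsg.Agent.PermutationGroups.AutQuaternion.card_mulAut]
      exact Subgroup.card_subgroup_dvd_card _
    have h4d : 4 ∣ Nat.card (GenQuat.kap N e).range :=
      (GenQuat.four_dvd (e := e) (le_refl N)).trans (Subgroup.card_dvd_of_le (Subgroup.map_le_range _ _))
    generalize hRd : Nat.card (GenQuat.kap N e).range = R at h4 h24 h4d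
    generalize hCd : Nat.card (GenQuat.kap N e).ker = C at h4 hdv
    rw [← h4] at h3
    have hR : R ∈ Nat.divisors 24 := Nat.mem_divisors.2 ⟨h24, by norm_num⟩
    have hR' : Nat.divisors 24 = {1, 2, 3, 4, 6, 8, 12, 24} := by decide
    rw [hR'] at hR
    have h8 : R = 24 ∨ R = 12 ∨ (R = 8 ∧ ¬ 4 ∣ C) := by
      have hle := Nat.le_of_dvd (by rcases hp with rfl | rfl | rfl | rfl <;> norm_num) hdv
      have hC : C ∈ Finset.range 23 := by
        rw [Finset.mem_range]
        rcases hp with rfl | rfl | rfl | rfl <;> omega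
      rcases hp with rfl | rfl | rfl | rfl
      · exact (num5 C hC R hR h3 hdv).resolve_right (by rintro rfl; omega)
      · exact num7 C hC R hR h3 hdv
      · exact num11 C hC R hR h3 hdv
      · exact num23 C hC R hR h3 hdv
    rcases h8 with h8 | h8 | ⟨h8, h9⟩
    · exact GenQuat.twoGen_24 hcy hZ (hRd.trans h8)
    · exact GenQuat.twoGen_12 hcy hZ (hRd.trans h8)
    · exact GenQuat.twoGen_8 hcy hZ (hRd.trans h8) (by rw [hCd]; exact h9)
  · rw [hcardN]
    intro h
    have := Nat.le_of_dvd (by norm_num) h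
    rcases hp with rfl | rfl | rfl | rfl
    · norm_num at h
    · norm_num at h
    · omega
    · omega

end Cfsg.Agent.H479.GenAff
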