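/-
helper479 (TEAM GEN, piece M of S3565): the rows with a normal subgroup `SL₂(5)` in dimension two.
-/
import Cfsg.Agent.H479.GenAff

set_option autoImplicit false

namespace Cfsg.Agent.H479.GenSL

open Cfsg.Agent.H440.TwoGen Cfsg.Agent.H891.Gen Subgroup Cfsg.Agent.H479.GenAff

universe u

abbrev S5 := Matrix.SpecialLinearGroup (Fin 2) (ZMod 5)

/-- upper transvection -/
def uu : S5 := ⟨!![1, 1; 0, 1], by decide⟩
/-- the Weyl element -/
def ww : S5 := ⟨!![0, 1; -1, 0], by decide⟩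
/-- lower transvection -/
def ll : S5 := ⟨!![1, 0; 1, 1], by decide⟩
/-- diagonal -/
def dd : S5 := ⟨!![2, 0; 0, 3], by decide⟩

theorem ll_eq : ll = ww⁻¹ * uu⁻¹ * ww := by decide +kernel
theorem uu5 : uu ^ 5 = 1 := by decide +kernel
theorem uu_ne : uu ≠ 1 := by decide +kernel
theorem dd_conj : dd * uu * dd⁻¹ = uu⁻¹ := by decide +kernel
theorem comm_uu : dd * uu * dd⁻¹ * uu⁻¹ = uu ^ 3 := by decide +kernel
theorem comm_ll : dd * ll * dd⁻¹ * ll⁻¹ = ll ^ 3 := by decide +kernel
theorem ww2 : ww * ww = -1 := by decide +kernel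
theorem uw3 : (uu * ww) ^ 3 = 1 ∨ (uu * ww) ^ 3 = -1 := by decide +kernel
theorem noncomm : uu * ww ≠ ww * uu := by decide +kernel

theorem word_fact : ∀ a b c d : ZMod 5, a * d - b * c = 1 →
    (∃ i j k : Fin 5, (!![a, b; c, d] : Matrix (Fin 2) (Fin 2) (ZMod 5)) =
      !![1, (i.val : ZMod 5); 0, 1] * !![1, 0; (j.val : ZMod 5), 1] * !![1, (k.val : ZMod 5); 0, 1]) ∨
    (∃ i j k : Fin 5, (!![a, b; c, d] : Matrix (Fin 2) (Fin 2) (ZMod 5)) =
      !![1, 0; 1, 1] * (!![1, (i.val : ZMod 5); 0, 1] * !![1, 0; (j.val : ZMod 5), 1] *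
        !![1, (k.val : ZMod 5); 0, 1])) := by
  decide +kernel

theorem rel_fact : ∀ a b c d : ZMod 5, a * d - b * c = 1 →
    (!![a, b; c, d] : Matrix (Fin 2) (Fin 2) (ZMod 5)) * !![a, b; c, d] = !![-1, 0; 0, -1] →
    (!![1, 1; 0, 1] * !![a, b; c, d]) * (!![1, 1; 0, 1] * !![a, b; c, d]) * (!![1, 1; 0, 1] * !![a, b; c, d]) =
      (!![1, 1; 0, 1] * !![0, 1; -1, 0]) * (!![1, 1; 0, 1] * !![0, 1; -1, 0]) *
        ((!![1, 1; 0, 1] : Matrix (Fin 2) (Fin 2) (ZMod 5)) * !![0, 1; -1, 0]) →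
    ∃ k : Fin 5, (!![a, b; c, d] : Matrix (Fin 2) (Fin 2) (ZMod 5)) =
      !![1, (k.val : ZMod 5); 0, 1] * !![0, 1; -1, 0] * !![1, -(k.val : ZMod 5); 0, 1] := by
  decide +kernel

theorem uu_pow (k : ℕ) : ((uu ^ k : S5) : Matrix (Fin 2) (Fin 2) (ZMod 5)) = !![1, (k : ZMod 5); 0, 1] := by
  induction k with
  | zero => ext i j; fin_cases i <;> fin_cases j <;> simp
  | succ k ih =>
    rw [pow_succ, Matrix.SpecialLinearGroup.coe_mul, ih]
    ext i j
    fin_cases i <;> fin_cases j <;> simp [uu, Matrix.mul_apply, Fin.sum_univ_two, add_comm]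

theorem ll_pow (k : ℕ) : ((ll ^ k : S5) : Matrix (Fin 2) (Fin 2) (ZMod 5)) = !![1, 0; (k : ZMod 5), 1] := by
  induction k with
  | zero => ext i j; fin_cases i <;> fin_cases j <;> simp
  | succ k ih =>
    rw [pow_succ, Matrix.SpecialLinearGroup.coe_mul, ih]
    ext i j
    fin_cases i <;> fin_cases j <;> simp [ll, Matrix.mul_apply, Fin.sum_univ_two]

theorem eta (x : S5) : (x : Matrix (Fin 2) (Fin 2) (ZMod 5)) = !![x 0 0, x 0 1; x 1 0, x 1 1] := by
  ext i j
  fin_cases i <;> fin_cases j <;> rfl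

theorem det_eta (x : S5) : x 0 0 * x 1 1 - x 0 1 * x 1 0 = 1 := by
  have := x.2
  rwa [Matrix.det_fin_two] at this

theorem top_of {K : Subgroup S5} (hu : uu ∈ K) (hw : ww ∈ K) : K = ⊤ := by
  rw [eq_top_iff]
  intro x _
  have hl : ll ∈ K := by
    rw [ll_eq]
    exact K.mul_mem (K.mul_mem (K.inv_mem hw) (K.inv_mem hu)) hw
  rcases word_fact _ _ _ _ (det_eta x) with ⟨i, j, k, h⟩ | ⟨i, j, k, h⟩
  · have h1 : x = uu ^ i.val * ll ^ j.val * uu ^ k.val := by
      apply Subtype.ext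
      rw [Matrix.SpecialLinearGroup.coe_mul, Matrix.SpecialLinearGroup.coe_mul, uu_pow, ll_pow, uu_pow, ← h,
        ← eta]
    rw [h1]
    exact K.mul_mem (K.mul_mem (K.pow_mem hu _) (K.pow_mem hl _)) (K.pow_mem hu _)
  · have h1 : x = ll * (uu ^ i.val * ll ^ j.val * uu ^ k.val) := by
      apply Subtype.ext
      rw [Matrix.SpecialLinearGroup.coe_mul, Matrix.SpecialLinearGroup.coe_mul,
        Matrix.SpecialLinearGroup.coe_mul, uu_pow, ll_pow, uu_pow]
      exact (eta x).trans h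
    rw [h1]
    exact K.mul_mem hl (K.mul_mem (K.mul_mem (K.pow_mem hu _) (K.pow_mem hl _)) (K.pow_mem hu _))

theorem rel {x : S5} (h1 : x * x = -1) (h2 : (uu * x) ^ 3 = (uu * ww) ^ 3) :
    ∃ k : ℕ, x = uu ^ k * ww * (uu ^ k)⁻¹ := by
  obtain ⟨k, hk⟩ := rel_fact _ _ _ _ (det_eta x) (by
      have := congrArg Subtype.val h1
      rw [← eta]
      rw [Matrix.SpecialLinearGroup.coe_mul] at this
      rw [this]
      ext i j
      fin_cases i <;> fin_cases j <;> simp) (by
      have := congrArg Subtype.val h2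
      rw [← eta]
      rw [pow_succ, pow_two, pow_succ, pow_two] at this
      simp only [Matrix.SpecialLinearGroup.coe_mul] at this
      exact this)
  refine ⟨k.val, ?_⟩
  rw [eq_mul_inv_iff_mul_eq]
  apply Subtype.ext
  rw [Matrix.SpecialLinearGroup.coe_mul, Matrix.SpecialLinearGroup.coe_mul, uu_pow]
  have h3 := (eta x).trans hk
  rw [h3, Matrix.mul_assoc]
  have h4 : (!![1, -(k.val : ZMod 5); 0, 1] : Matrix (Fin 2) (Fin 2) (ZMod 5)) * !![1, (k.val : ZMod 5); 0, 1] = 1 := by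
    ext i j
    fin_cases i <;> fin_cases j <;> simp [Matrix.mul_apply, Fin.sum_univ_two]
  rw [h4, Matrix.mul_one]
  rfl

/-! ### the trace argument -/

section trace

variable {F : Type*} [Field F]

theorem ch2 (M : Matrix (Fin 2) (Fin 2) F) : M * M = M.trace • M - M.det • 1 := by
  ext i j
  fin_cases i <;> fin_cases j <;>
    simp [Matrix.mul_apply, Fin.sum_univ_two, Matrix.trace_fin_two, Matrix.det_fin_two] <;> ring

theorem trace_sq {M : Matrix (Fin 2) (Fin 2) F} (hd : M.det = 1) (h5 : M ^ 5 = 1) (hF : (5 : F) ≠ 0)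
    (ht : (M * M).trace = M.trace) : M = 1 := by
  have h1 := ch2 M
  rw [hd, one_smul] at h1
  have h2 : M.trace * M.trace - 2 = M.trace := by
    have h3 := congrArg Matrix.trace h1
    rw [ht, Matrix.trace_sub, Matrix.trace_smul, Matrix.trace_one, Fintype.card_fin, smul_eq_mul] at h3
    push_cast at h3
    linear_combination -h3
  have hp5 : M ^ 5 = M * M * M * (M * M) := by simp only [pow_succ, pow_zero, one_mul, mul_assoc]
  have h3 : (M.trace - 2) * (M.trace + 1) = 0 := by linear_combination h2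
  rcases mul_eq_zero.1 h3 with h4 | h4
  · have h5' : M.trace = 2 := by linear_combination h4
    rw [h5'] at h1
    have e3 : M * M * M = (3 : F) • M - (2 : F) • (1 : Matrix (Fin 2) (Fin 2) F) := by
      rw [h1, sub_mul, smul_mul_assoc, h1, one_mul]; module
    have e5 : M * M * M * (M * M) = (5 : F) • M - (4 : F) • (1 : Matrix (Fin 2) (Fin 2) F) := by
      rw [e3, h1]
      simp only [sub_mul, mul_sub, smul_mul_assoc, mul_smul_comm, one_mul, mul_one, h1]
      module
    rw [← hp5, h5] at e5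
    have h6 : (5 : F) • (M - 1) = 0 := by
      have : (5 : F) • (M - 1) = ((5 : F) • M - (4 : F) • (1 : Matrix (Fin 2) (Fin 2) F)) - 1 := by module
      rw [this, ← e5, sub_self]
    rcases smul_eq_zero.1 h6 with h7 | h7
    · exact absurd h7 hF
    · exact sub_eq_zero.1 h7
  · have h5' : M.trace = -1 := by linear_combination h4
    rw [h5'] at h1
    have e3 : M * M * M = 1 := by
      rw [h1, sub_mul, smul_mul_assoc, h1, one_mul]; module
    have e2 : M * M = 1 := by
      rw [h5, e3, one_mul] at hp5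
      exact hp5.symm
    rw [e2, one_mul] at e3
    exact e3

end trace

section main

variable {V : Type u} [AddCommGroup V] {p : ℕ} {H : Subgroup (Equiv.Perm V)}

/-- A derived fact: the determinant is trivial on `uu`. -/
theorem det_one {F : Type*} [Field F] {X : Type*} [Group X] (r : X →* Matrix (Fin 2) (Fin 2) F)
    {N : Subgroup X} (e : N ≃* S5) : (r (e.symm uu : N)).det = 1 := by
  let δ : N →* F := ((Matrix.detMonoidHom).comp r).comp N.subtype
  have h1 : δ (e.symm uu) ^ 3 = 1 := by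
    rw [← map_pow, ← map_pow, ← comm_uu]
    simp only [map_mul]
    have h2 : δ (e.symm dd) * δ (e.symm dd⁻¹) = 1 := by
      rw [← map_mul, ← map_mul, mul_inv_cancel, map_one, map_one]
    have h3 : δ (e.symm uu) * δ (e.symm uu⁻¹) = 1 := by
      rw [← map_mul, ← map_mul, mul_inv_cancel, map_one, map_one]
    linear_combination (δ (e.symm uu) * δ (e.symm uu⁻¹)) * h2 + h3
  have h2 : δ (e.symm uu) ^ 5 = 1 := by
    rw [← map_pow, ← map_pow, uu5, map_one, map_one]
  have h3 : δ (e.symm uu) = 1 := by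
    have h4 : δ (e.symm uu) ^ 2 = 1 := by
      have : δ (e.symm uu) ^ 5 = δ (e.symm uu) ^ 3 * δ (e.symm uu) ^ 2 := by ring
      rw [h1, h2, one_mul] at this
      exact this.symm
    have : δ (e.symm uu) ^ 3 = δ (e.symm uu) ^ 2 * δ (e.symm uu) := by ring
    rw [h1, h4, one_mul] at this
    exact this.symm
  exact h3

/-- Every element of `X` is an element of `N` times an element of the centralizer of `N`, if `X` acts on a plane. -/
theorem split {F : Type*} [Field F] (hF : (5 : F) ≠ 0) {X : Type*} [Group X] [Finite X]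
    (r : X →* Matrix (Fin 2) (Fin 2) F) (hr : Function.Injective r)
    (N : Subgroup X) [hN : N.Normal] (e : N ≃* S5) (x : X) :
    ∃ n ∈ N, ∀ m ∈ N, (n * x) * m = m * (n * x) := by
  obtain ⟨U, hU⟩ : ∃ U : N, U = e.symm uu := ⟨_, rfl⟩
  obtain ⟨W, hW⟩ : ∃ W : N, W = e.symm ww := ⟨_, rfl⟩
  have hU5 : (U : X) ^ 5 = 1 := by
    have h1 : U ^ 5 = 1 := by rw [hU, ← map_pow, uu5, map_one]
    have := congrArg Subtype.val h1
    simpa using this
  have hU1 : (U : X) ≠ 1 := by
    intro h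
    have h1 : U = 1 := Subtype.ext h
    rw [hU] at h1
    exact uu_ne ((MulEquiv.map_eq_one_iff e.symm).1 h1)
  -- no element conjugates `U` into `U ^ 2`
  have hno : ∀ y : X, y * U * y⁻¹ ≠ (U : X) ^ 2 := by
    intro y hy
    have h1 : (r (U : X)).det = 1 := hU ▸ det_one r e
    have h2 : r (U : X) ^ 5 = 1 := by rw [← map_pow, hU5, map_one]
    have h3 : (r (U : X) * r (U : X)).trace = (r (U : X)).trace := by
      rw [← map_mul, ← pow_two, ← hy, map_mul, map_mul, Matrix.trace_mul_comm, ← mul_assoc, ← map_mul,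
        inv_mul_cancel, map_one, one_mul]
    have h4 := trace_sq h1 h2 hF h3
    exact hU1 (hr (by rw [h4, map_one]))
  have : Fact (Nat.Prime 5) := ⟨by norm_num⟩
  -- conjugate `x U x⁻¹` into `⟨U⟩` by Sylow
  obtain ⟨n1, k, hk⟩ : ∃ (n1 : N) (k : ℕ), (n1 : X) * (x * U * x⁻¹) * (n1 : X)⁻¹ = (U : X) ^ k := by
    have hcard : Nat.card N = 120 := by
      rw [Nat.card_congr e.toEquiv, Nat.card_eq_fintype_card]
      decide +kernel
    obtain ⟨U', hU'⟩ : ∃ U' : N, (U' : X) = x * U * x⁻¹ := ⟨⟨_, hN.conj_mem U U.2 x⟩, rfl⟩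
    have ho : ∀ Z : N, (Z : X) ^ 5 = 1 → (Z : X) ≠ 1 → Nat.card (Subgroup.zpowers Z) = 5 ^ (Nat.card N).factorization 5 := by
      intro Z hZ hZ1
      have h1 : orderOf Z = 5 := orderOf_eq_prime (Subtype.ext (by simpa using hZ))
        (fun h => hZ1 (congrArg Subtype.val h))
      have h2 : (120 : ℕ).factorization 5 = 1 := by
        rw [Nat.factorization_def _ (by norm_num)]
        decide +kernel
      rw [Nat.card_zpowers, h1, hcard, h2, pow_one]
    have hU'5 : (U' : X) ^ 5 = 1 := by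
      rw [hU', conj_pow, hU5, mul_one, mul_inv_cancel]
    have hU'1 : (U' : X) ≠ 1 := by
      rw [hU']
      intro h
      rw [mul_inv_eq_one] at h
      exact hU1 (by simpa using h)
    let P : Sylow 5 N := Sylow.ofCard (Subgroup.zpowers U) (ho U hU5 hU1)
    let P' : Sylow 5 N := Sylow.ofCard (Subgroup.zpowers U') (ho U' hU'5 hU'1)
    obtain ⟨g, hg⟩ := MulAction.exists_smul_eq N P' P
    have h1 : g * U' * g⁻¹ ∈ (P : Subgroup N) := by
      rw [← hg, Sylow.coe_subgroup_smul]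
      exact Subgroup.smul_mem_pointwise_smul U' (MulAut.conj g) _ (Subgroup.mem_zpowers U')
    have h2 : g * U' * g⁻¹ ∈ Subgroup.zpowers U := h1
    rw [← mem_powers_iff_mem_zpowers] at h2
    obtain ⟨k, hk⟩ := h2
    refine ⟨g, k, ?_⟩
    have := congrArg Subtype.val hk
    rw [← hU']
    simpa using this.symm
  -- `k` is `±1`
  obtain ⟨n2, h2⟩ : ∃ n2 : N, (n2 : X) * (x * U * x⁻¹) * (n2 : X)⁻¹ = (U : X) := by
    have hmod : (U : X) ^ k = (U : X) ^ (k % 5) := by
      conv_lhs => rw [← Nat.div_add_mod k 5, pow_add, pow_mul, hU5, one_pow, one_mul]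
    rw [hmod] at hk
    have hk5 : k % 5 < 5 := Nat.mod_lt _ (by norm_num)
    obtain ⟨y, hy⟩ : ∃ y : X, y = n1 * x := ⟨_, rfl⟩
    have hyU : y * U * y⁻¹ = (U : X) ^ (k % 5) := by
      rw [← hk, hy]; group
    have hpw : ∀ j : ℕ, y * (U : X) ^ j * y⁻¹ = (U : X) ^ (k % 5 * j) := by
      intro j
      rw [← conj_pow, hyU, ← pow_mul]
    interval_cases hkk : k % 5
    · exfalso
      rw [pow_zero, mul_inv_eq_one] at hyU
      exact hU1 (by simpa using hyU)
    · exact ⟨n1, by rw [hk, pow_one]⟩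
    · exact absurd hyU (hno y)
    · exfalso
      apply hno (y ^ 3)
      have e1 : y ^ 3 * U * (y ^ 3)⁻¹ = y * (y * (y * (U : X) ^ 1 * y⁻¹) * y⁻¹) * y⁻¹ := by
        simp only [pow_succ, pow_zero, one_mul, mul_inv_rev, mul_assoc]
      rw [e1, hpw, hpw, hpw]
      have : (U : X) ^ (3 * (3 * (3 * 1))) = ((U : X) ^ 5) ^ 5 * (U : X) ^ 2 := by
        rw [← pow_mul, ← pow_add]
      rw [this, hU5, one_pow, one_mul]
    · -- use `dd`
      have hd : ((e.symm dd : N) : X) * U * ((e.symm dd : N) : X)⁻¹ = (U : X)⁻¹ := by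
        have h1 : e.symm dd * U * (e.symm dd)⁻¹ = U⁻¹ := by
          rw [hU, ← map_inv, ← map_mul, ← map_mul, dd_conj, map_inv]
        have := congrArg Subtype.val h1
        simpa using this
      refine ⟨e.symm dd * n1, ?_⟩
      have e1 : ((e.symm dd * n1 : N) : X) * (x * U * x⁻¹) * ((e.symm dd * n1 : N) : X)⁻¹ =
          ((e.symm dd : N) : X) * (n1 * (x * U * x⁻¹) * (n1 : X)⁻¹) * ((e.symm dd : N) : X)⁻¹ := by
        rw [Subgroup.coe_mul]; group
      rw [e1, hk, ← conj_pow, hd]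
      have : (U : X)⁻¹ ^ 4 = (U : X) * ((U : X) ^ 5)⁻¹ := by group
      rw [this, hU5, inv_one, mul_one]
  -- now `y = n2 x` centralizes `U`
  obtain ⟨y, hy⟩ : ∃ y : X, y = n2 * x := ⟨_, rfl⟩
  have hyU : y * U * y⁻¹ = U := by
    conv_rhs => rw [← h2]
    rw [hy]; group
  obtain ⟨W', hW'⟩ : ∃ W' : N, (W' : X) = y * W * y⁻¹ := ⟨⟨_, hN.conj_mem W W.2 y⟩, rfl⟩
  -- conjugation by `y` as an automorphism of `N`
  obtain ⟨f, hf⟩ : ∃ f : N →* N, ∀ m : N, ((f m : N) : X) = y * m * y⁻¹ :=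
    ⟨(MulAut.conjNormal y : MulAut N).toMonoidHom, fun m => MulAut.conjNormal_apply y m⟩
  have hfinj : Function.Injective f := by
    intro a b hab
    apply Subtype.ext
    have := congrArg Subtype.val hab
    rw [hf, hf] at this
    simpa using this
  have hfU : f U = U := Subtype.ext (by rw [hf, hyU])
  have hfz : f (e.symm (-1)) = e.symm (-1) := by
    -- the unique involution
    have h1 : (e (f (e.symm (-1)))) * (e (f (e.symm (-1)))) = 1 := by
      rw [← map_mul, ← map_mul, ← map_mul]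
      simp
    have h3 : e (f (e.symm (-1))) ≠ 1 := by
      intro h
      rw [MulEquiv.map_eq_one_iff] at h
      have h4 : e.symm (-1 : S5) = 1 := hfinj (by rw [h, map_one])
      rw [MulEquiv.map_eq_one_iff] at h4
      exact absurd h4 (by decide +kernel)
    have h4 : ∀ z : S5, z * z = 1 → z ≠ 1 → z = -1 := by decide +kernel
    apply e.injective
    rw [h4 _ h1 h3, e.apply_symm_apply]
  have hsub := rel (x := e (f W)) (by
      rw [← map_mul, ← map_mul, hW, ← map_mul, ww2, hfz, e.apply_symm_apply]) (by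
      have h1 : uu * e (f W) = e (f (e.symm (uu * ww))) := by
        rw [map_mul e.symm, map_mul f, map_mul e, ← hU, hfU, hW, hU, e.apply_symm_apply]
      rw [h1, ← map_pow, ← map_pow, ← map_pow]
      rcases uw3 with h2 | h2
      · rw [h2]; simp
      · rw [h2, hfz, e.apply_symm_apply])
  obtain ⟨k, hk⟩ := hsub
  -- correct by `U ^ (-k)`
  refine ⟨(U ^ k : N)⁻¹ * n2, (((U ^ k : N)⁻¹ * n2 : N)).2, ?_⟩
  obtain ⟨t, ht⟩ : ∃ t : X, t = ((U ^ k : N) : X)⁻¹ * n2 * x := ⟨_, rfl⟩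
  have hty : t = ((U : X) ^ k)⁻¹ * y := by rw [ht, hy]; simp [mul_assoc]
  have htU : t * U = U * t := by
    rw [hty]
    have h3 : y * U = U * y := by rw [mul_inv_eq_iff_eq_mul] at hyU; exact hyU
    have h4 : ((U : X) ^ k)⁻¹ * U = U * ((U : X) ^ k)⁻¹ := by
      have : Commute ((U : X) ^ k)⁻¹ (U : X) := (Commute.pow_left (Commute.refl _) k).inv_left
      exact this
    rw [mul_assoc, h3, ← mul_assoc, h4, mul_assoc]
  have htW : t * W = W * t := by
    have h3 : f W = U ^ k * W * (U ^ k)⁻¹ := by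
      apply e.injective
      rw [hk, map_mul, map_mul, map_inv, map_pow, hU, hW, e.apply_symm_apply, e.apply_symm_apply]
    have h4 := congrArg Subtype.val h3
    rw [hf] at h4
    simp only [Subgroup.coe_mul, Subgroup.coe_inv, SubmonoidClass.coe_pow] at h4
    -- `y W y⁻¹ = U^k W U^-k`
    rw [hty]
    have h5 : y * W = (U : X) ^ k * W * ((U : X) ^ k)⁻¹ * y := by
      rw [← h4]; group
    rw [mul_assoc, h5]
    group
  have hcent : ∀ m ∈ N, t * m = m * t := by
    intro m hm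
    let K : Subgroup S5 := ((Subgroup.centralizer ({t} : Set X)).subgroupOf N).map e.toMonoidHom
    have hKu : uu ∈ K := ⟨U, by
      change U ∈ (Subgroup.centralizer ({t} : Set X)).subgroupOf N
      rw [Subgroup.mem_subgroupOf, Subgroup.mem_centralizer_singleton_iff]
      exact htU.symm, by rw [hU]; exact e.apply_symm_apply _⟩
    have hKw : ww ∈ K := ⟨W, by
      change W ∈ (Subgroup.centralizer ({t} : Set X)).subgroupOf N
      rw [Subgroup.mem_subgroupOf, Subgroup.mem_centralizer_singleton_iff]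
      exact htW.symm, by rw [hW]; exact e.apply_symm_apply _⟩
    have h6 : e ⟨m, hm⟩ ∈ K := (top_of hKu hKw) ▸ Subgroup.mem_top _
    obtain ⟨m', hm', h7⟩ := h6
    have h8 : m' = ⟨m, hm⟩ := e.injective h7
    rw [h8] at hm'
    have h9 : (⟨m, hm⟩ : N) ∈ (Subgroup.centralizer ({t} : Set X)).subgroupOf N := hm'
    rw [Subgroup.mem_subgroupOf, Subgroup.mem_centralizer_singleton_iff] at h9
    exact h9.symm
  intro m hm
  have h10 := hcent m hm
  rw [ht] at h10
  exact h10

/-- `X = N C` with `N ≅ SL₂(5)` and `C` central cyclic: two generators. -/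
theorem twoGen_of_split {X : Type*} [Group X] (N : Subgroup X) (e : N ≃* S5) (C : Subgroup X)
    (hC : ∀ c ∈ C, ∀ x : X, c * x = x * c) (hcy : IsCyclic C) (hs : ∀ x : X, ∃ n ∈ N, n * x ∈ C) :
    TwoGen X := by
  obtain ⟨⟨c, hc⟩, hg⟩ := hcy.exists_generator
  have hCle : ∀ K : Subgroup X, c ∈ K → C ≤ K := by
    intro K hcK x hx
    obtain ⟨i, hi⟩ := Subgroup.mem_zpowers_iff.1 (hg ⟨x, hx⟩)
    have h5 := congrArg Subtype.val hi
    simp only [SubgroupClass.coe_zpow] at h5
    rw [← h5]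
    exact K.zpow_mem hcK _
  have hNle : ∀ K : Subgroup X, ((e.symm uu : N) : X) ∈ K → ((e.symm ww : N) : X) ∈ K → N ≤ K := by
    intro K h1 h2 n hn
    have h3 : (K.subgroupOf N).map e.toMonoidHom = ⊤ := by
      apply top_of
      · exact ⟨e.symm uu, Subgroup.mem_subgroupOf.2 h1, e.apply_symm_apply _⟩
      · exact ⟨e.symm ww, Subgroup.mem_subgroupOf.2 h2, e.apply_symm_apply _⟩
    have h4 : e ⟨n, hn⟩ ∈ (K.subgroupOf N).map e.toMonoidHom := h3 ▸ Subgroup.mem_top _
    obtain ⟨m, hm, h5⟩ := h4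
    have h6 : m = ⟨n, hn⟩ := e.injective h5
    rw [h6] at hm
    exact Subgroup.mem_subgroupOf.1 hm
  have htop : ∀ K : Subgroup X, N ≤ K → C ≤ K → K = ⊤ := by
    intro K h1 h2
    rw [eq_top_iff]
    intro x _
    obtain ⟨n, hn, h3⟩ := hs x
    have := K.mul_mem (K.inv_mem (h1 hn)) (h2 h3)
    rwa [inv_mul_cancel_left] at this
  obtain ⟨U, hU⟩ : ∃ U : X, U = (e.symm uu : N) := ⟨_, rfl⟩
  obtain ⟨W, hW⟩ : ∃ W : X, W = (e.symm ww : N) := ⟨_, rfl⟩
  refine ⟨U * c, W, ?_⟩
  obtain ⟨K, hKd⟩ : ∃ K, K = closure ({U * c, W} : Set X) := ⟨_, rfl⟩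
  rw [← hKd]
  have h1 : U * c ∈ K := hKd ▸ subset_closure (by simp)
  have hWK : W ∈ K := hKd ▸ subset_closure (by simp)
  -- every element is in `K C`
  have hKC : ∀ x : X, ∃ k ∈ K, ∃ c' ∈ C, x = k * c' := by
    let K' : Subgroup X :=
      { carrier := {x | ∃ k ∈ K, ∃ c' ∈ C, x = k * c'}
        mul_mem' := by
          rintro _ _ ⟨k, hk, d, hd, rfl⟩ ⟨k', hk', d', hd', rfl⟩
          refine ⟨k * k', K.mul_mem hk hk', d * d', C.mul_mem hd hd', ?_⟩
          rw [mul_assoc, ← mul_assoc d, hC d hd k']; group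
        one_mem' := ⟨1, K.one_mem, 1, C.one_mem, by simp⟩
        inv_mem' := by
          rintro _ ⟨k, hk, d, hd, rfl⟩
          refine ⟨k⁻¹, K.inv_mem hk, d⁻¹, C.inv_mem hd, ?_⟩
          rw [mul_inv_rev, hC d⁻¹ (C.inv_mem hd)] }
    have hK' : K' = ⊤ := by
      apply htop
      · apply hNle
        · exact ⟨U * c, h1, c⁻¹, C.inv_mem hc, by rw [mul_inv_cancel_right]; exact hU.symm⟩
        · exact ⟨W, hWK, 1, C.one_mem, by rw [mul_one]; exact hW.symm⟩
      · intro d hd
        exact ⟨1, K.one_mem, d, hd, by rw [one_mul]⟩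
    intro x
    have : x ∈ K' := hK' ▸ Subgroup.mem_top x
    exact this
  -- commutators are in `K`
  have hcomm : ∀ x y : X, x * y * x⁻¹ * y⁻¹ ∈ K := by
    intro x y
    obtain ⟨k, hk, d, hd, rfl⟩ := hKC x
    obtain ⟨k', hk', d', hd', rfl⟩ := hKC y
    have h2 : k * d * (k' * d') * (k * d)⁻¹ * (k' * d')⁻¹ = k * k' * k⁻¹ * k'⁻¹ := by
      have e1 : k * d * (k' * d') = k * k' * (d * d') := by
        rw [mul_assoc, ← mul_assoc d, hC d hd k']; group
      have e2 : k' * d' * (k * d) = k' * k * (d * d') := by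
        rw [mul_assoc, ← mul_assoc d', hC d' hd' k, hC d hd d']; group
      have e3 : k * d * (k' * d') * (k * d)⁻¹ * (k' * d')⁻¹ =
          (k * d * (k' * d')) * (k' * d' * (k * d))⁻¹ := by group
      rw [e3, e1, e2]; group
    rw [h2]
    exact K.mul_mem (K.mul_mem (K.mul_mem hk hk') (K.inv_mem hk)) (K.inv_mem hk')
  have hUK : U ∈ K := by
    have h2 := hcomm ((e.symm dd : N) : X) U
    have h3 : ((e.symm dd : N) : X) * U * ((e.symm dd : N) : X)⁻¹ * U⁻¹ = U ^ 3 := by
      have h4 : e.symm dd * e.symm uu * (e.symm dd)⁻¹ * (e.symm uu)⁻¹ = (e.symm uu) ^ 3 := by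
        rw [← map_inv, ← map_inv, ← map_mul, ← map_mul, ← map_mul, ← map_pow, comm_uu]
      have := congrArg Subtype.val h4
      rw [hU]
      simpa using this
    rw [h3] at h2
    have h5 : U ^ 5 = 1 := by
      have h4 : (e.symm uu) ^ 5 = 1 := by rw [← map_pow, uu5, map_one]
      have := congrArg Subtype.val h4
      rw [hU]
      simpa using this
    exact GenQuat.mem_of_pow_mem h5 (by norm_num) h2
  have hcK : c ∈ K := by
    have := K.mul_mem (K.inv_mem hUK) h1
    rwa [inv_mul_cancel_left] at this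
  exact htop K (hNle K (hU ▸ hUK) (hW ▸ hWK)) (hCle K hcK)

/-- The row `SL₂(5)` in dimension two. -/
theorem sl25 (L : Lin p H) (h2 : Nat.card V = p ^ 2) (hp : p = 11 ∨ p = 19 ∨ p = 29 ∨ p = 59)
    (hN : ∃ N : Subgroup ↥H, N.Normal ∧ Nonempty (↥N ≃* Matrix.SpecialLinearGroup (Fin 2) (ZMod 5))) :
    AffGood H := by
  obtain ⟨N, hNn, ⟨e⟩⟩ := hN
  have hfinV := L.fin
  have hpp : Fact p.Prime := ⟨L.prime⟩
  have hcardN : Nat.card N = 120 := by
    rw [Nat.card_congr e.toEquiv, Nat.card_eq_fintype_card]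
    decide +kernel
  have hfix := fix_zero L N (by rintro rfl; simp at hcardN)
  refine affGood_of_coprime L ?_ N ?_ hfix
  · obtain ⟨r, hr⟩ := exists_mat L h2
    have h5 : (5 : ZMod p) ≠ 0 := by
      have h6 : ((5 : ℕ) : ZMod p) ≠ 0 := by
        rw [Ne, ZMod.natCast_eq_zero_iff]
        intro h
        have := Nat.le_of_dvd (by norm_num) h
        rcases hp with rfl | rfl | rfl | rfl <;> omega
      exact_mod_cast h6
    obtain ⟨hZ, hcy, -⟩ := central L h2 N ⟨e.symm uu, (e.symm _).2, e.symm ww, (e.symm _).2, by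
        intro h
        have h3 : e.symm uu * e.symm ww = e.symm ww * e.symm uu := Subtype.ext h
        rw [← map_mul, ← map_mul] at h3
        exact noncomm (e.symm.injective h3)⟩ (Subgroup.centralizer (N : Set H)) (by
        intro c hc n hn
        exact (Subgroup.mem_centralizer_iff.1 hc n hn).symm)
    refine twoGen_of_split N e _ hZ hcy fun x => ?_
    obtain ⟨n, hn, h⟩ := split h5 r hr N e x
    exact ⟨n, hn, Subgroup.mem_centralizer_iff.2 fun m hm => (h m hm).symm⟩
  · rw [hcardN]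
    rcases hp with rfl | rfl | rfl | rfl <;> norm_num

end main

end Cfsg.Agent.H479.GenSL
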