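/-
helper479 (TEAM GEN, piece M of S3565): the fields `sl23`, `quat` and `sl25` of `LinRows`.
-/
import Cfsg.Agent.H479.GenSL
import Cfsg.Agent.H490.Der
import Cfsg.Agent.H891.Gen.LinRows

set_option autoImplicit false

namespace Cfsg.Agent.H479.GenLin

open Cfsg.Agent.H440.TwoGen Cfsg.Agent.H891.Gen Subgroup Module Cfsg.Agent.H50.Her

universe u

/-! ### general facts in dimension two -/

section rep

variable {F : Type*} [Field F] {X : Type*} [Group X] [Finite X]

theorem central (r : X →* Matrix (Fin 2) (Fin 2) F) (hr : Function.Injective r) (N : Subgroup X)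
    (hN : ∃ n ∈ N, ∃ n' ∈ N, n * n' ≠ n' * n) (C : Subgroup X)
    (hC : ∀ c ∈ C, ∀ n ∈ N, c * n = n * c) :
    (∀ c ∈ C, ∀ x : X, c * x = x * c) ∧ IsCyclic C ∧ Nat.card C ∣ Nat.card F - 1 := by
  obtain ⟨n, hn, n', hn', hnn⟩ := hN
  have hsc : ∀ c ∈ C, ∃ t : F, r c = t • (1 : Matrix (Fin 2) (Fin 2) F) := by
    intro c hc
    by_contra hcon
    apply hnn
    apply hr
    rw [map_mul, map_mul]
    exact GenAff.comm_of_comm hcon (by rw [← map_mul, hC c hc n hn, map_mul])
      (by rw [← map_mul, hC c hc n' hn', map_mul])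
  refine ⟨fun c hc x => ?_, ?_⟩
  · apply hr
    obtain ⟨t, ht⟩ := hsc c hc
    rw [map_mul, map_mul, ht, Matrix.smul_mul, Matrix.mul_smul, Matrix.one_mul, Matrix.mul_one]
  · have hent : ∀ c ∈ C, r c = (r c 0 0) • (1 : Matrix (Fin 2) (Fin 2) F) := by
      intro c hc
      obtain ⟨t, ht⟩ := hsc c hc
      rw [ht]
      simp
    let f : C →* F :=
      { toFun := fun c => r c 0 0
        map_one' := by simp
        map_mul' := fun c d => by
          rw [Subgroup.coe_mul, map_mul, hent c c.2, hent d d.2]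
          simp [mul_comm] }
    have hf : Function.Injective f := by
      intro c d hcd
      apply Subtype.ext
      apply hr
      rw [hent c c.2, hent d d.2]
      congr 1
    refine ⟨isCyclic_of_injective_ringHom f hf, ?_⟩
    have h3 : Function.Injective f.toHomUnits := by
      intro c d hcd
      apply hf
      exact congrArg Units.val hcd
    have h4 := Subgroup.card_dvd_of_injective f.toHomUnits h3
    rwa [Nat.card_units] at h4

end rep

section lin

variable {p : ℕ} [hp : Fact p.Prime] {V : Type u} [AddCommGroup V] [Module (ZMod p) V] [Finite V]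
  {G : Subgroup (V ≃ₗ[ZMod p] V)}

omit [Finite V] in
theorem tors (v : V) : p • v = 0 := by
  have h : ((p : ℕ) : ZMod p) • v = 0 := by rw [ZMod.natCast_self, zero_smul]
  rwa [Nat.cast_smul_eq_nsmul] at h

omit [Finite V] in
theorem exists_mat (h2 : finrank (ZMod p) V = 2) :
    ∃ r : ↥G →* Matrix (Fin 2) (Fin 2) (ZMod p), Function.Injective r ∧
      ∀ g : G, (r g).det = LinearMap.det ((g : V ≃ₗ[ZMod p] V) : V →ₗ[ZMod p] V) := by
  have : FiniteDimensional (ZMod p) V := FiniteDimensional.of_finrank_pos (by omega)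
  let b : Basis (Fin 2) (ZMod p) V := Module.finBasisOfFinrankEq (ZMod p) V h2
  let g : ↥G →* Module.End (ZMod p) V :=
    { toFun := fun h => ((h : V ≃ₗ[ZMod p] V) : V →ₗ[ZMod p] V)
      map_one' := by ext v; rfl
      map_mul' := fun x y => by ext v; rfl }
  refine ⟨((LinearMap.toMatrixAlgEquiv b : _ ≃ₐ[ZMod p] _) : _ →* _).comp g, ?_, fun h => ?_⟩
  · intro x y hxy
    have h3 : g x = g y := (LinearMap.toMatrixAlgEquiv b).injective hxy
    apply Subtype.ext
    ext v
    exact DFunLike.congr_fun h3 v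
  · rw [← LinearMap.det_toMatrix b]
    rfl

theorem card_V (h2 : finrank (ZMod p) V = 2) : Nat.card V = p ^ 2 := by
  rw [Module.natCard_eq_pow_finrank (K := ZMod p) (V := V), h2, Nat.card_zmod]

/-- `p² - 1` divides the order. -/
theorem card_dvd (htr : ∀ v w : V, v ≠ 0 → w ≠ 0 → ∃ g ∈ G, g v = w)
    (h2 : finrank (ZMod p) V = 2) : p ^ 2 - 1 ∣ Nat.card G := by
  have hnt : Nontrivial V := by
    have : 1 < Nat.card V := by
      rw [card_V h2]
      exact Nat.one_lt_pow two_ne_zero hp.out.one_lt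
    exact Finite.one_lt_card_iff_nontrivial.1 this
  obtain ⟨v, hv⟩ := exists_ne (0 : V)
  have h1 : MulAction.orbit G v = {w : V | w ≠ 0} := by
    ext w
    constructor
    · rintro ⟨h, rfl⟩ h0
      have h3 : (h : V ≃ₗ[ZMod p] V) v = 0 := h0
      exact hv ((LinearEquiv.map_eq_zero_iff _).1 h3)
    · intro hw
      obtain ⟨h, hh, h3⟩ := htr v w hv hw
      exact ⟨⟨h, hh⟩, h3⟩
  have h3 : Nat.card (MulAction.orbit G v) = p ^ 2 - 1 := by
    rw [h1, ← card_V h2, Nat.card_coe_set_eq]
    have h4 : {w : V | w ≠ 0} = ({0} : Set V)ᶜ := rfl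
    rw [h4, Set.ncard_compl, Set.ncard_singleton]
  rw [← h3, Nat.card_coe_set_eq, ← MulAction.index_stabilizer]
  exact Subgroup.index_dvd_card _

omit [Finite V] in
/-- A normal subgroup `≠ 1` has no fixed vectors. -/
theorem fix_zero (htr : ∀ v w : V, v ≠ 0 → w ≠ 0 → ∃ g ∈ G, g v = w) (N : Subgroup ↥G)
    [hNn : N.Normal] (hN : N ≠ ⊥) : ∀ v : V, (∀ n ∈ N, n • v = v) → v = 0 := by
  intro v hv
  by_contra hv0
  have h3 : ∀ w : V, ∀ n ∈ N, n • w = w := by
    intro w n hn
    by_cases hw : w = 0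
    · rw [hw, smul_zero]
    obtain ⟨h, hh, rfl⟩ := htr v w hv0 hw
    obtain ⟨g, hg⟩ : ∃ g : G, g = ⟨h, hh⟩ := ⟨_, rfl⟩
    have h4 := hv (g⁻¹ * n * g) (by simpa using hNn.conj_mem n hn g⁻¹)
    have h5 : n * g = g * (g⁻¹ * n * g) := by group
    have h6 : n • (g • v) = g • v := by
      rw [← mul_smul, h5, mul_smul, h4]
    rw [hg] at h6
    exact h6
  apply hN
  rw [Subgroup.eq_bot_iff_forall]
  intro n hn
  apply Subtype.ext
  ext w
  exact h3 w n hn

/-- few derivations from a normal `p'`-subgroup -/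
theorem small_of_norm (htr : ∀ v w : V, v ≠ 0 → w ≠ 0 → ∃ g ∈ G, g v = w) [Nontrivial V]
    (N : Subgroup ↥G) [hNn : N.Normal] (hN : N ≠ ⊥) (hpN : ¬ p ∣ Nat.card N) : Small ↥G V := by
  have hfin : Finite (V ≃ₗ[ZMod p] V) := Finite.of_injective (fun f => (f : V → V)) DFunLike.coe_injective
  exact Cfsg.Agent.H490.Der.small_of_normal N (fix_zero htr N hN)
    (Cfsg.Agent.H490.Der.small_of_coprime hp.out (fun v => tors v) hpN)

theorem nontriv (h2 : finrank (ZMod p) V = 2) : Nontrivial V := by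
  have : 1 < Nat.card V := by
    rw [card_V h2]
    exact Nat.one_lt_pow two_ne_zero hp.out.one_lt
  exact Finite.one_lt_card_iff_nontrivial.1 this

theorem finG (G : Subgroup (V ≃ₗ[ZMod p] V)) : Finite G := by
  have hfin : Finite (V ≃ₗ[ZMod p] V) := Finite.of_injective (fun f => (f : V → V)) DFunLike.coe_injective
  infer_instance

/-- a normal quaternion group -/
theorem quat (htr : ∀ v w : V, v ≠ 0 → w ≠ 0 → ∃ g ∈ G, g v = w) (h2 : finrank (ZMod p) V = 2)
    (hp' : p = 5 ∨ p = 7 ∨ p = 11 ∨ p = 23)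
    (hN : ∃ N ≤ ⁅G, G⁆, Nor G N ∧ Nonempty (N ≃* QuaternionGroup 2)) : LGood G := by
  obtain ⟨N0, hN0, hnor, ⟨e0⟩⟩ := hN
  have hfG := finG G
  have hnt := nontriv (V := V) h2
  have hle : N0 ≤ G := hN0.trans (Subgroup.commutator_le_self G)
  obtain ⟨N, hNd⟩ : ∃ N : Subgroup ↥G, N = N0.subgroupOf G := ⟨_, rfl⟩
  have hNn : N.Normal := by
    rw [hNd]
    refine ⟨fun n hn g => ?_⟩
    exact Subgroup.mem_subgroupOf.2 (hnor g g.2 n (Subgroup.mem_subgroupOf.1 hn))
  have e : N ≃* QuaternionGroup 2 := by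
    rw [hNd]
    exact (Subgroup.subgroupOfEquivOfLe hle).trans e0
  have hcardN : Nat.card N = 8 := by
    rw [Nat.card_congr e.toEquiv, Nat.card_eq_fintype_card, QuaternionGroup.card]
  refine ⟨?_, small_of_norm htr N (by intro h; rw [h] at hcardN; simp at hcardN) ?_⟩
  · obtain ⟨r, hr, -⟩ := exists_mat (G := G) h2
    have hker : ∀ c ∈ (GenQuat.kap N e).ker, ∀ n ∈ N, c * n = n * c := by
      intro c hc n hn
      have h3 := GenQuat.kap_apply N e c (e ⟨n, hn⟩)
      rw [MonoidHom.mem_ker.1 hc, MulAut.one_apply, e.symm_apply_apply] at h3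
      simp only at h3
      exact (eq_mul_inv_iff_mul_eq.1 h3).symm
    obtain ⟨hZ, hcy, hdv⟩ := central r hr N ⟨e.symm (QuaternionGroup.a 1), (e.symm _).2,
      e.symm (QuaternionGroup.xa 0), (e.symm _).2, by
        intro h
        have h3 : e.symm (QuaternionGroup.a 1) * e.symm (QuaternionGroup.xa 0) =
            e.symm (QuaternionGroup.xa 0) * e.symm (QuaternionGroup.a 1) := Subtype.ext h
        rw [← map_mul, ← map_mul] at h3
        exact absurd (e.symm.injective h3) (by decide)⟩ _ hker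
    rw [Nat.card_zmod] at hdv
    have h3 := card_dvd htr h2
    have h4 := Subgroup.card_mul_index (GenQuat.kap N e).ker
    rw [Subgroup.index_ker] at h4
    have h24 : Nat.card (GenQuat.kap N e).range ∣ 24 := by
      rw [← Cfsg.Agent.PermutationGroups.AutQuaternion.card_mulAut]
      exact Subgroup.card_subgroup_dvd_card _
    have h4d : 4 ∣ Nat.card (GenQuat.kap N e).range :=
      (GenQuat.four_dvd (e := e) (le_refl N)).trans (Subgroup.card_dvd_of_le (Subgroup.map_le_range _ _))
    generalize hRd : Nat.card (GenQuat.kap N e).range = R at h4 h24 h4d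
    generalize hCd : Nat.card (GenQuat.kap N e).ker = C at h4 hdv
    rw [← h4] at h3
    have hR : R ∈ Nat.divisors 24 := Nat.mem_divisors.2 ⟨h24, by norm_num⟩
    have hR' : Nat.divisors 24 = {1, 2, 3, 4, 6, 8, 12, 24} := by decide
    rw [hR'] at hR
    have h8 : R = 24 ∨ R = 12 ∨ (R = 8 ∧ ¬ 4 ∣ C) := by
      have hle := Nat.le_of_dvd (by rcases hp' with rfl | rfl | rfl | rfl <;> norm_num) hdv
      have hC : C ∈ Finset.range 23 := by
        rw [Finset.mem_range]
        rcases hp' with rfl | rfl | rfl | rfl <;> omega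
      rcases hp' with rfl | rfl | rfl | rfl
      · exact (GenAff.num5 C hC R hR h3 hdv).resolve_right (by rintro rfl; omega)
      · exact GenAff.num7 C hC R hR h3 hdv
      · exact GenAff.num11 C hC R hR h3 hdv
      · exact GenAff.num23 C hC R hR h3 hdv
    rcases h8 with h8 | h8 | ⟨h8, h9⟩
    · exact GenQuat.twoGen_24 hcy hZ (hRd.trans h8)
    · exact GenQuat.twoGen_12 hcy hZ (hRd.trans h8)
    · exact GenQuat.twoGen_8 hcy hZ (hRd.trans h8) (by rw [hCd]; exact h9)
  · rw [hcardN]
    intro h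
    have := Nat.le_of_dvd (by norm_num) h
    rcases hp' with rfl | rfl | rfl | rfl
    · norm_num at h
    · norm_num at h
    · omega
    · omega

/-- a normal `SL₂(5)` -/
theorem sl25 (htr : ∀ v w : V, v ≠ 0 → w ≠ 0 → ∃ g ∈ G, g v = w) (h2 : finrank (ZMod p) V = 2)
    (hp' : p = 11 ∨ p = 19 ∨ p = 29 ∨ p = 59) {N0 : Subgroup (V ≃ₗ[ZMod p] V)} (hle : N0 ≤ G)
    (hnor : Nor G N0) (e0 : N0 ≃* Matrix.SpecialLinearGroup (Fin 2) (ZMod 5)) : LGood G := by
  have hfG := finG G
  have hnt := nontriv (V := V) h2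
  obtain ⟨N, hNd⟩ : ∃ N : Subgroup ↥G, N = N0.subgroupOf G := ⟨_, rfl⟩
  have hNn : N.Normal := by
    rw [hNd]
    refine ⟨fun n hn g => ?_⟩
    exact Subgroup.mem_subgroupOf.2 (hnor g g.2 n (Subgroup.mem_subgroupOf.1 hn))
  have e : N ≃* GenSL.S5 := by
    rw [hNd]
    exact (Subgroup.subgroupOfEquivOfLe hle).trans e0
  have hcardN : Nat.card N = 120 := by
    rw [Nat.card_congr e.toEquiv, Nat.card_eq_fintype_card]
    decide +kernel
  refine ⟨?_, small_of_norm htr N (by intro h; rw [h] at hcardN; simp at hcardN) ?_⟩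
  · obtain ⟨r, hr, -⟩ := exists_mat (G := G) h2
    have h5 : (5 : ZMod p) ≠ 0 := by
      have h6 : ((5 : ℕ) : ZMod p) ≠ 0 := by
        rw [Ne, ZMod.natCast_eq_zero_iff]
        intro h
        have := Nat.le_of_dvd (by norm_num) h
        rcases hp' with rfl | rfl | rfl | rfl <;> omega
      exact_mod_cast h6
    obtain ⟨hZ, hcy, -⟩ := central r hr N ⟨e.symm GenSL.uu, (e.symm _).2, e.symm GenSL.ww,
      (e.symm _).2, by
        intro h
        have h3 : e.symm GenSL.uu * e.symm GenSL.ww = e.symm GenSL.ww * e.symm GenSL.uu := Subtype.ext h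
        rw [← map_mul, ← map_mul] at h3
        exact GenSL.noncomm (e.symm.injective h3)⟩ (Subgroup.centralizer (N : Set G)) (by
        intro c hc n hn
        exact (Subgroup.mem_centralizer_iff.1 hc n hn).symm)
    refine GenSL.twoGen_of_split N e _ hZ hcy fun x => ?_
    obtain ⟨n, hn, h⟩ := GenSL.split h5 r hr N e x
    exact ⟨n, hn, Subgroup.mem_centralizer_iff.2 fun m hm => (h m hm).symm⟩
  · rw [hcardN]
    rcases hp' with rfl | rfl | rfl | rfl <;> norm_num

end lin

/-! ### dimension two over the field with three elements -/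

theorem word3 : ∀ a b c d : ZMod 3, a * d - b * c = 1 →
    (∃ i j k : Fin 3, (!![a, b; c, d] : Matrix (Fin 2) (Fin 2) (ZMod 3)) =
      !![1, (i.val : ZMod 3); 0, 1] * !![1, 0; (j.val : ZMod 3), 1] * !![1, (k.val : ZMod 3); 0, 1]) ∨
    (∃ i j k : Fin 3, (!![a, b; c, d] : Matrix (Fin 2) (Fin 2) (ZMod 3)) =
      !![1, 0; 1, 1] * (!![1, (i.val : ZMod 3); 0, 1] * !![1, 0; (j.val : ZMod 3), 1] *
        !![1, (k.val : ZMod 3); 0, 1])) := by
  decide +kernel

theorem upow (k : ℕ) : (!![1, 1; 0, 1] : Matrix (Fin 2) (Fin 2) (ZMod 3)) ^ k = !![1, (k : ZMod 3); 0, 1] := by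
  induction k with
  | zero => ext i j; fin_cases i <;> fin_cases j <;> simp
  | succ k ih =>
    rw [pow_succ, ih]
    ext i j
    fin_cases i <;> fin_cases j <;> simp [Matrix.mul_apply, Fin.sum_univ_two, add_comm]

theorem lpow (k : ℕ) : (!![1, 0; 1, 1] : Matrix (Fin 2) (Fin 2) (ZMod 3)) ^ k = !![1, 0; (k : ZMod 3), 1] := by
  induction k with
  | zero => ext i j; fin_cases i <;> fin_cases j <;> simp
  | succ k ih =>
    rw [pow_succ, ih]
    ext i j
    fin_cases i <;> fin_cases j <;> simp [Matrix.mul_apply, Fin.sum_univ_two]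

/-- A group with a faithful representation onto a set of matrices over `ZMod 3` containing all of determinant one. -/
theorem twoGen_three {X : Type*} [Group X] (r : X →* Matrix (Fin 2) (Fin 2) (ZMod 3))
    (hr : Function.Injective r) (hsl : ∀ M : Matrix (Fin 2) (Fin 2) (ZMod 3), M.det = 1 → ∃ x, r x = M) :
    TwoGen X := by
  obtain ⟨u, hu⟩ := hsl !![1, 1; 0, 1] (by decide)
  obtain ⟨l, hl⟩ := hsl !![1, 0; 1, 1] (by decide)
  -- a subgroup containing `u`, `l` contains everything of determinant one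
  have key : ∀ K : Subgroup X, u ∈ K → l ∈ K → ∀ x : X, (r x).det = 1 → x ∈ K := by
    intro K huK hlK x hx
    have heta : r x = !![r x 0 0, r x 0 1; r x 1 0, r x 1 1] := by
      ext i j; fin_cases i <;> fin_cases j <;> rfl
    rw [Matrix.det_fin_two] at hx
    rcases word3 _ _ _ _ hx with ⟨i, j, k, h⟩ | ⟨i, j, k, h⟩
    · have h1 : x = u ^ i.val * l ^ j.val * u ^ k.val := by
        apply hr
        rw [map_mul, map_mul, map_pow, map_pow, map_pow, hu, hl, upow, lpow, upow, ← h]
        exact heta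
      rw [h1]
      exact K.mul_mem (K.mul_mem (K.pow_mem huK _) (K.pow_mem hlK _)) (K.pow_mem huK _)
    · have h1 : x = l * (u ^ i.val * l ^ j.val * u ^ k.val) := by
        apply hr
        rw [map_mul, map_mul, map_mul, map_pow, map_pow, map_pow, hu, hl, upow, lpow, upow]
        exact heta.trans h
      rw [h1]
      exact K.mul_mem hlK (K.mul_mem (K.mul_mem (K.pow_mem huK _) (K.pow_mem hlK _)) (K.pow_mem huK _))
  by_cases hall : ∀ x : X, (r x).det = 1
  · refine ⟨u, l, ?_⟩
    rw [eq_top_iff]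
    intro x _
    exact key _ (Subgroup.subset_closure (by simp)) (Subgroup.subset_closure (by simp)) x (hall x)
  · push Not at hall
    obtain ⟨y, hy⟩ := hall
    -- determinants are `1` or `2`
    have hd : ∀ x : X, (r x).det = 1 ∨ (r x).det = 2 := by
      intro x
      have h1 : (r x).det * (r x⁻¹).det = 1 := by
        rw [← Matrix.det_mul, ← map_mul, mul_inv_cancel, map_one, Matrix.det_one]
      have h2 : ∀ a b : ZMod 3, a * b = 1 → a = 1 ∨ a = 2 := by decide
      exact h2 _ _ h1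
    have hy2 := (hd y).resolve_left hy
    -- an element with matrix `s`
    obtain ⟨s, hs⟩ : ∃ s, r s = !![0, 1; 1, 1] := by
      obtain ⟨t, ht⟩ := hsl (!![0, 1; 1, 1] * r y⁻¹) (by
        rw [Matrix.det_mul]
        have h1 : (r y⁻¹).det = 2 := by
          have h2 : (r y).det * (r y⁻¹).det = 1 := by
            rw [← Matrix.det_mul, ← map_mul, mul_inv_cancel, map_one, Matrix.det_one]
          rw [hy2] at h2
          have h3 : ∀ b : ZMod 3, 2 * b = 1 → b = 2 := by decide
          exact h3 _ h2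
        rw [h1]
        decide)
      refine ⟨t * y, ?_⟩
      rw [map_mul, ht, mul_assoc, ← map_mul, inv_mul_cancel, map_one, mul_one]
    have hsl' : l = s * u * s⁻¹ := by
      rw [eq_mul_inv_iff_mul_eq]
      apply hr
      rw [map_mul, map_mul, hs, hu, hl]
      decide
    refine ⟨u, s, ?_⟩
    rw [eq_top_iff]
    intro x _
    have huK : u ∈ closure ({u, s} : Set X) := Subgroup.subset_closure (by simp)
    have hsK : s ∈ closure ({u, s} : Set X) := Subgroup.subset_closure (by simp)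
    have hlK : l ∈ closure ({u, s} : Set X) := by
      rw [hsl']
      exact mul_mem (mul_mem hsK huK) (inv_mem hsK)
    rcases hd x with h1 | h1
    · exact key _ huK hlK x h1
    · have h2 : (r (x * s)).det = 1 := by
        rw [map_mul, Matrix.det_mul, h1, hs]
        decide
      have h3 := key _ huK hlK _ h2
      have h4 := mul_mem h3 (inv_mem hsK)
      rwa [mul_inv_cancel_right] at h4

theorem sl23 {V : Type u} [AddCommGroup V] [Module (ZMod 3) V] [Finite V] (G : Subgroup (V ≃ₗ[ZMod 3] V))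
    (h2 : finrank (ZMod 3) V = 2) (hG : ∀ g : V ≃ₗ[ZMod 3] V, LinearEquiv.det g = 1 → g ∈ G) : LGood G := by
  have : Fact (Nat.Prime 3) := ⟨Nat.prime_three⟩
  have hfG := finG G
  have hnt := nontriv (V := V) h2
  have h20 : (2 : ZMod 3) ≠ 0 := by
    intro h
    have h' : ((2 : ℕ) : ZMod 3) = 0 := by exact_mod_cast h
    rw [ZMod.natCast_eq_zero_iff] at h'
    omega
  refine ⟨?_, ?_⟩
  · -- the matrices of determinant one
    have : FiniteDimensional (ZMod 3) V := FiniteDimensional.of_finrank_pos (by omega)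
    let b : Basis (Fin 2) (ZMod 3) V := Module.finBasisOfFinrankEq (ZMod 3) V h2
    let g : ↥G →* Module.End (ZMod 3) V :=
      { toFun := fun h => ((h : V ≃ₗ[ZMod 3] V) : V →ₗ[ZMod 3] V)
        map_one' := by ext v; rfl
        map_mul' := fun x y => by ext v; rfl }
    refine twoGen_three (((LinearMap.toMatrixAlgEquiv b : _ ≃ₐ[ZMod 3] _) : _ →* _).comp g) ?_ ?_
    · intro x y hxy
      have h3 : g x = g y := (LinearMap.toMatrixAlgEquiv b).injective hxy
      apply Subtype.ext
      ext v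
      exact DFunLike.congr_fun h3 v
    · intro M hM
      have h3 : LinearMap.det (Matrix.toLin b b M) = 1 := by rw [LinearMap.det_toLin, hM]
      let f : V ≃ₗ[ZMod 3] V := LinearEquiv.ofIsUnitDet (v := b) (v' := b) (f := Matrix.toLin b b M) (by
        rw [LinearMap.toMatrix_toLin, hM]; exact isUnit_one)
      have hf : (f : V →ₗ[ZMod 3] V) = Matrix.toLin b b M := by ext v; rfl
      have hfd : LinearEquiv.det f = 1 := by
        apply Units.ext
        rw [LinearEquiv.coe_det, hf, h3, Units.val_one]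
      refine ⟨⟨f, hG f hfd⟩, ?_⟩
      change LinearMap.toMatrixAlgEquiv b (f : V →ₗ[ZMod 3] V) = M
      rw [hf]
      exact LinearMap.toMatrix_toLin b b M
  · -- `-1`
    have hneg : LinearEquiv.neg (ZMod 3) ∈ G := by
      apply hG
      apply Units.ext
      rw [LinearEquiv.coe_det]
      have h3 : ((LinearEquiv.neg (ZMod 3) : V ≃ₗ[ZMod 3] V) : V →ₗ[ZMod 3] V) = (-1 : ZMod 3) • LinearMap.id := by
        ext v; simp
      rw [h3, LinearMap.det_smul, h2, LinearMap.det_id, Units.val_one]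
      norm_num
    obtain ⟨m, hm⟩ : ∃ m : G, ∀ v : V, m • v = -v := ⟨⟨_, hneg⟩, fun v => rfl⟩
    have hm2 : m ^ 2 = 1 := by
      apply Subtype.ext
      ext v
      rw [pow_two]
      change m • m • v = v
      rw [hm, hm, neg_neg]
    have hmc : ∀ g : G, g * m = m * g := by
      intro g
      apply Subtype.ext
      ext v
      change g • m • v = m • g • v
      rw [hm, hm, smul_neg]
    have hm1 : m ≠ 1 := by
      intro h
      obtain ⟨v, hv⟩ := exists_ne (0 : V)
      have h3 := hm v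
      rw [h, one_smul] at h3
      have h4 : (2 : ZMod 3) • v = 0 := by
        rw [two_smul]
        nth_rewrite 1 [h3]
        rw [neg_add_cancel]
      rcases smul_eq_zero.1 h4 with h5 | h5
      · exact absurd h5 h20
      · exact hv h5
    have hN : (Subgroup.zpowers m).Normal := by
      refine ⟨fun n hn g => ?_⟩
      obtain ⟨k, rfl⟩ := Subgroup.mem_zpowers_iff.1 hn
      have h3 : g * m ^ k * g⁻¹ = m ^ k := by
        rw [← conj_zpow, hmc, mul_inv_cancel_right]
      rw [h3]
      exact Subgroup.zpow_mem_zpowers m k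
    have hcard : Nat.card (Subgroup.zpowers m) = 2 := by
      rw [Nat.card_zpowers]
      exact orderOf_eq_prime hm2 hm1
    refine Cfsg.Agent.H490.Der.small_of_normal (Subgroup.zpowers m) (fun v hv => ?_)
      (Cfsg.Agent.H490.Der.small_of_coprime Nat.prime_three (fun v => tors v) (by rw [hcard]; norm_num))
    have h3 := hv m (Subgroup.mem_zpowers m)
    rw [hm] at h3
    have h4 : (2 : ZMod 3) • v = 0 := by
      rw [two_smul]
      nth_rewrite 1 [← h3]
      rw [neg_add_cancel]
    rcases smul_eq_zero.1 h4 with h5 | h5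
    · exact absurd h5 h20
    · exact h5

/-! ### the fields of `LinRows` -/

theorem row_sl23 : ∀ (V : Type u) [AddCommGroup V] [Module (ZMod 3) V] [Finite V] (G : Subgroup (V ≃ₗ[ZMod 3] V)),
    finrank (ZMod 3) V = 2 → (∀ g : V ≃ₗ[ZMod 3] V, LinearEquiv.det g = 1 → g ∈ G) → LGood G :=
  fun _ _ _ _ G h2 hG => sl23 G h2 hG

theorem row_quat : ∀ (p : ℕ) [Fact p.Prime] (V : Type u) [AddCommGroup V] [Module (ZMod p) V] [Finite V]
    (G : Subgroup (V ≃ₗ[ZMod p] V)), (∀ v w : V, v ≠ 0 → w ≠ 0 → ∃ g ∈ G, g v = w) → finrank (ZMod p) V = 2 →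
    (p = 5 ∨ p = 7 ∨ p = 11 ∨ p = 23) → (∃ N ≤ ⁅G, G⁆, Nor G N ∧ Nonempty (N ≃* QuaternionGroup 2)) → LGood G :=
  fun _ _ _ _ _ _ _ htr h2 hp' hN => quat htr h2 hp' hN

theorem row_sl25 : ∀ (p : ℕ) [Fact p.Prime] (V : Type u) [AddCommGroup V] [Module (ZMod p) V] [Finite V]
    (G A L : Subgroup (V ≃ₗ[ZMod p] V)), (∀ v w : V, v ≠ 0 → w ≠ 0 → ∃ g ∈ G, g v = w) → MaxAb G A → Perf G A L →
    Quasi A L → finrank (ZMod p) V = 2 → (p = 11 ∨ p = 19 ∨ p = 29 ∨ p = 59) →
    Nonempty (L ≃* Matrix.SpecialLinearGroup (Fin 2) (ZMod 5)) → LGood G :=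
  fun _ _ _ _ _ _ _ _ _ htr _ hL _ h2 hp' ⟨e⟩ => sl25 htr h2 hp' hL.le hL.nor e

end Cfsg.Agent.H479.GenLin
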