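import Mathlib

/-!
# An elementary abelian subgroup of order `|F|²` of `PSL₃(F)`, `char F = 2` (helper479)
-/

set_option autoImplicit false

namespace Cfsg.Agent.H479.PSL3Four

open Matrix

variable (F : Type*) [Field F]

/-- the matrices `1 + b E₀₁ + c E₀₂` -/
def mat (v : F × F) : Matrix (Fin 3) (Fin 3) F := !![1, v.1, v.2; 0, 1, 0; 0, 0, 1]

/-- the corresponding homomorphism -/
def hom : Multiplicative (F × F) →* SpecialLinearGroup (Fin 3) F where
  toFun v := ⟨mat F v.toAdd, by
    rw [Matrix.det_fin_three]
    simp [mat]⟩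
  map_one' := by
    apply Subtype.ext
    change mat F 0 = 1
    ext i j
    fin_cases i <;> fin_cases j <;> simp [mat]
  map_mul' v w := by
    apply Subtype.ext
    change mat F (v.toAdd + w.toAdd) = mat F v.toAdd * mat F w.toAdd
    ext i j
    fin_cases i <;> fin_cases j <;> simp [mat, Matrix.mul_apply, Fin.sum_univ_three, add_comm]

/-- its composition with the projection -/
def homP : Multiplicative (F × F) →* Matrix.ProjectiveSpecialLinearGroup (Fin 3) F :=
  (QuotientGroup.mk' _).comp (hom F)

theorem homP_injective : Function.Injective (homP F) := by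
  rw [injective_iff_map_eq_one]
  intro v hv
  have h1 : hom F v ∈ Subgroup.center (SpecialLinearGroup (Fin 3) F) := by
    rw [← QuotientGroup.eq_one_iff]
    exact hv
  rw [Matrix.SpecialLinearGroup.mem_center_iff] at h1
  obtain ⟨r, -, hr⟩ := h1
  have h2 : Matrix.scalar (Fin 3) r = mat F v.toAdd := hr
  have e1 := congrFun (congrFun h2 0) 1
  have e2 := congrFun (congrFun h2 0) 2
  simp [mat] at e1 e2
  apply Multiplicative.toAdd.injective
  exact Prod.ext e1.symm e2.symm

/-- `PSL₃(F)`, `char F = 2`, has a subgroup of exponent two and order `|F|²`. -/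
theorem exists_subgroup [Fintype F] [CharP F 2] :
    ∃ E : Subgroup (Matrix.ProjectiveSpecialLinearGroup (Fin 3) F), (∀ x ∈ E, x * x = 1) ∧
      Nat.card E = Fintype.card F ^ 2 := by
  refine ⟨(homP F).range, ?_, ?_⟩
  · rintro _ ⟨v, rfl⟩
    rw [← map_mul]
    have : v * v = 1 := by
      apply Multiplicative.toAdd.injective
      change v.toAdd + v.toAdd = 0
      exact Prod.ext (CharTwo.add_self_eq_zero _) (CharTwo.add_self_eq_zero _)
    rw [this, map_one]
  · rw [← Nat.card_congr (MonoidHom.ofInjective (homP_injective F)).toEquiv]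
    change Nat.card (F × F) = _
    rw [Nat.card_prod, Nat.card_eq_fintype_card, pow_two]

end Cfsg.Agent.H479.PSL3Four
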